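import Cfsg.Agent.ExtremelyClosedOdd.Moments
import Cfsg.Agent.Blocks.Contributions
import Cfsg.Agent.Chars.GaloisSum.Nonvanishing
import Cfsg.Agent.Chars.GaloisSum.Basic

/-!
# Galois averages of squared column norms

* `pow_mul_card_le_sum_nsq`: column norms divisible by `p ^ k` at all generators of a cyclic group
  average at least `p ^ k`.
* `mul_pairCount_le_pairSum`: a lower bound for `pairSum`.
-/

set_option autoImplicit false
set_option linter.unusedSectionVars false
set_option linter.style.haveILetI false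

namespace CfsgLib.ExtremelyClosedOdd

open Cfsg CfsgLib.Chars CfsgLib.Blocks Polynomial
open scoped ComplexConjugate

universe u

variable {G : Type u} [Group G]

theorem nsq_pos {X : Finset (IrrCharacter G)} {χ : IrrCharacter G} (hχ : χ ∈ X) {x : G}
    (h : (χ : G → ℂ) x ≠ 0) : 0 < nsq X x :=
  Finset.sum_pos' (fun _ _ => sq_nonneg _) ⟨χ, hχ, pow_pos (norm_pos_iff.mpr h) 2⟩

theorem nsq_pos_of_one_mem {X : Finset (IrrCharacter G)} (hX : oneChar G ∈ X) (x : G) :
    0 < nsq X x :=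
  nsq_pos hX (by simp)

variable [Fintype G]

/-- The column norms on the powers of an element are values of one polynomial. -/
theorem exists_nsq_poly (X : Finset (IrrCharacter G)) {N : ℕ} (hN : 0 < N) {ζ : ℂ}
    (hζ : IsPrimitiveRoot ζ N) {η : G} (hη : η ^ N = 1) :
    ∃ P : ℤ[X], ∀ i : ℕ, ((nsq X (η ^ i) : ℝ) : ℂ) = aeval (ζ ^ i) P := by
  classical
  have hex : ∀ χ : IrrCharacter G, ∃ P : ℤ[X], ∀ i : ℕ,
      (χ : G → ℂ) (η ^ i) = aeval (ζ ^ i) P := by
    intro χ
    obtain ⟨n, ρ, -, hρ⟩ := χ.2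
    obtain ⟨P, hP⟩ := Chars.Apps.exists_trace_poly hN hζ (ρ η) (by rw [← map_pow, hη, map_one])
    exact ⟨P, fun i => by rw [← hρ, ← hP i, ← map_pow]; rfl⟩
  choose P hP using hex
  refine ⟨∑ χ ∈ X, P χ * (P χ).comp (Polynomial.X ^ (N - 1)), fun i => ?_⟩
  rw [nsq, Complex.ofReal_sum, map_sum]
  refine Finset.sum_congr rfl fun χ _ => ?_
  rw [map_mul, aeval_comp, map_pow, aeval_X, ← pow_mul, ← hP, ← hP, ← Complex.normSq_eq_norm_sq,
    ← Complex.mul_conj]
  rw [show η ^ (i * (N - 1)) = (η ^ i)⁻¹ from eq_inv_of_mul_eq_one_right ?_,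
    map_inv_eq_conj (isCharacter_coe χ)]
  rw [← pow_add, show i + i * (N - 1) = N * i by
    obtain ⟨m, rfl⟩ := Nat.exists_eq_succ_of_ne_zero hN.ne'
    simp only [Nat.succ_eq_add_one, Nat.add_sub_cancel]; ring, pow_mul, hη, one_pow]

/-- The exponents of the generators. -/
def genExps (N : ℕ) : Finset ℕ := (Finset.range N).filter fun i => i.Coprime N

theorem mem_genExps {N i : ℕ} : i ∈ genExps N ↔ i < N ∧ i.Coprime N := by simp [genExps]

theorem genExps_card_pos {N : ℕ} (hN : 1 < N) : 0 < (genExps N).card :=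
  Finset.card_pos.mpr ⟨1, mem_genExps.mpr ⟨hN, Nat.coprime_one_left N⟩⟩

variable {p : ℕ} [hp : Fact p.Prime] {M : Ideal AlgInt}

/-- **Galois average.** -/
theorem pow_mul_card_le_sum_nsq (hM : IsPModular p M) (X : Finset (IrrCharacter G)) {N k : ℕ}
    (hN : 0 < N) {η : G} (hη : η ^ N = 1)
    (hpos : ∀ i : ℕ, i.Coprime N → 0 < nsq X (η ^ i))
    (hdiv : ∀ i : ℕ, i.Coprime N →
      ∃ w : ℂ, MemLocalRing M w ∧ ((nsq X (η ^ i) : ℝ) : ℂ) = (p : ℂ) ^ k * w) :
    (p : ℝ) ^ k * ((genExps N).card : ℝ) ≤ ∑ i ∈ genExps N, nsq X (η ^ i) := by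
  classical
  have := isMaximal_of_isPModular hM
  have hζ := Complex.isPrimitiveRoot_exp _ hN.ne'
  set ζ := Complex.exp (2 * Real.pi * Complex.I / (N : ℕ))
  obtain ⟨P, hP⟩ := exists_nsq_poly X hN hζ hη
  have hcop : ∀ i ∈ genExps N, i.Coprime N := fun i hi => (mem_genExps.mp hi).2
  obtain ⟨R, hR⟩ := Chars.Apps.exists_intCast_eq_prod hN P
  have hRprod : (R : ℂ) = ∏ i ∈ genExps N, ((nsq X (η ^ i) : ℝ) : ℂ) := by
    haveI : NeZero N := ⟨hN.ne'⟩
    rw [hR]
    symm
    refine Finset.prod_nbij (fun i => ζ ^ i) (fun i hi => ?_) (fun i hi j hj e => ?_) (fun μ hμ => ?_)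
      fun i _ => hP i
    · exact (mem_primitiveRoots hN).mpr ((hζ.pow_iff_coprime hN i).mpr (hcop i hi))
    · exact hζ.pow_inj (mem_genExps.mp hi).1 (mem_genExps.mp hj).1 e
    · obtain ⟨i, hi, rfl⟩ := hζ.eq_pow_of_pow_eq_one
        ((mem_primitiveRoots hN).mp (Finset.mem_coe.mp hμ)).pow_eq_one
      exact ⟨i, mem_genExps.mpr ⟨hi, (hζ.pow_iff_coprime hN i).mp
        ((mem_primitiveRoots hN).mp (Finset.mem_coe.mp hμ))⟩, rfl⟩
  choose w hw heq using hdiv
  set W : ℕ → ℂ := fun i => if hi : i.Coprime N then w i hi else 1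
  have hprod : (R : ℂ) = (p : ℂ) ^ (k * (genExps N).card) * ∏ i ∈ genExps N, W i := by
    rw [hRprod, pow_mul, ← Finset.prod_const, ← Finset.prod_mul_distrib]
    exact Finset.prod_congr rfl fun i hi => by simp only [W, dif_pos (hcop i hi)]; exact heq i _
  have hdvd := Blocks.HeightZero.pow_dvd_of_eq_mul hM ((localRing M).prod_mem fun i hi => by
    simp only [W, dif_pos (hcop i hi)]; exact hw i _) hprod
  have hRr : (R : ℝ) = ∏ i ∈ genExps N, nsq X (η ^ i) := by
    apply Complex.ofReal_injective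
    rw [Complex.ofReal_intCast, Complex.ofReal_prod, hRprod]
  have hppos : ∀ i ∈ genExps N, 0 < nsq X (η ^ i) := fun i hi => hpos i (hcop i hi)
  have hR0 : 0 < R := by
    have h := Finset.prod_pos hppos
    rw [← hRr] at h
    exact_mod_cast h
  have habs : (p : ℝ) ^ (k * (genExps N).card) ≤ (R : ℝ) := by
    exact_mod_cast Int.le_of_dvd hR0 hdvd
  have hp0 : (0 : ℝ) < (p : ℝ) ^ k := pow_pos (Nat.cast_pos.2 hM.1.pos) k
  have h2 := Chars.GaloisSum.card_le_sum_of_one_le_prod (genExps N)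
    (fun i => nsq X (η ^ i) / (p : ℝ) ^ k) (fun i hi => div_pos (hppos i hi) hp0) (by
      rw [Finset.prod_div_distrib, Finset.prod_const, ← hRr, one_le_div (pow_pos hp0 _), ← pow_mul]
      exact habs)
  rw [← Finset.sum_div, le_div_iff₀ hp0] at h2
  linarith [mul_comm ((p : ℝ) ^ k) ((genExps N).card : ℝ)]

open Classical in
/-- The number of ordered pairs of conjugate nontrivial elements of `H`. -/
noncomputable def pairCount (H : Subgroup G) : ℝ :=
  ∑ x ∈ sharp H, (((sharp H).filter fun y => IsConj x y).card : ℝ)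

theorem card_sharp_le_pairCount (H : Subgroup G) : (Nat.card H : ℝ) - 1 ≤ pairCount H := by
  classical
  rw [← card_sharp, pairCount, ← mul_one ((sharp H).card : ℝ), ← nsmul_eq_mul, ← Finset.sum_const]
  exact Finset.sum_le_sum fun x hx => Nat.one_le_cast.mpr
    (Finset.card_pos.mpr ⟨x, Finset.mem_filter.mpr ⟨hx, IsConj.refl x⟩⟩)

/-- A lower bound for `pairSum` from Galois averages. -/
theorem mul_pairCount_le_pairSum {H : Subgroup G} (X : Finset (IrrCharacter G)) {N : ℕ}
    (hN : Nat.card H = N) (hN1 : 1 < N) (b : ℝ)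
    (hb : ∀ η ∈ sharp H, b * ((genExps N).card : ℝ) ≤ ∑ i ∈ genExps N, nsq X (η ^ i)) :
    b * pairCount H ≤ pairSum X H := by
  classical
  have key : ∀ i ∈ genExps N, pairSum X H =
      ∑ x ∈ sharp H, (((sharp H).filter fun y => IsConj x y).card : ℝ) * nsq X (x ^ i) := by
    intro i hi
    have hcop : (Nat.card H).Coprime i := hN ▸ (mem_genExps.mp hi).2.symm
    obtain ⟨l, hl⟩ : ∃ l : ℕ, ∀ x ∈ H, (x ^ i) ^ l = x := by
      obtain ⟨l, -, hl⟩ := Nat.exists_mul_mod_eq_one_of_coprime hcop.symm (hN ▸ hN1)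
      refine ⟨l, fun x hx => ?_⟩
      rw [← pow_mul]
      have h1 : x ^ Nat.card H = 1 :=
        orderOf_dvd_iff_pow_eq_one.mp (Subgroup.orderOf_dvd_natCard H hx)
      rw [pow_eq_pow_mod (i * l) h1, hl, pow_one]
    have hmem : ∀ x ∈ sharp H, x ^ i ∈ sharp H := fun x hx => by
      obtain ⟨hxH, hx1⟩ := mem_sharp.mp hx
      exact mem_sharp.mpr ⟨pow_mem hxH i, fun e => hx1 (by rw [← hl x hxH, e, one_pow])⟩
    have hinj : Set.InjOn (fun x : G => x ^ i) (sharp H) := fun x hx y hy e => by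
      rw [← hl x (mem_sharp.mp hx).1, ← hl y (mem_sharp.mp hy).1]
      exact congrArg (· ^ l) e
    have himg : (sharp H).image (fun x : G => x ^ i) = sharp H :=
      Finset.eq_of_subset_of_card_le (Finset.image_subset_iff.mpr hmem)
        (by rw [Finset.card_image_of_injOn hinj])
    rw [pairSum]
    conv_lhs => rw [← himg, Finset.sum_image hinj]
    refine Finset.sum_congr rfl fun x hx => ?_
    rw [Finset.card_filter, Nat.cast_sum, Finset.sum_mul]
    conv_lhs => rw [Finset.sum_image hinj]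
    refine Finset.sum_congr rfl fun y hy => ?_
    have hiff : IsConj (x ^ i) (y ^ i) ↔ IsConj x y := by
      refine ⟨fun hc => ?_, fun hc => hc.pow i⟩
      have := hc.pow l
      rwa [hl x (mem_sharp.mp hx).1, hl y (mem_sharp.mp hy).1] at this
    simp only [hiff]
    split_ifs <;> simp
  have hsum : ((genExps N).card : ℝ) * pairSum X H =
      ∑ x ∈ sharp H, (((sharp H).filter fun y => IsConj x y).card : ℝ) *
        ∑ i ∈ genExps N, nsq X (x ^ i) := by
    simp only [Finset.mul_sum]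
    rw [Finset.sum_comm, ← nsmul_eq_mul, ← Finset.sum_const]
    exact Finset.sum_congr rfl key
  have hle : ((genExps N).card : ℝ) * (b * pairCount H) ≤ ((genExps N).card : ℝ) * pairSum X H := by
    rw [hsum, pairCount, Finset.mul_sum, Finset.mul_sum]
    refine Finset.sum_le_sum fun x hx => ?_
    calc _ = (((sharp H).filter fun y => IsConj x y).card : ℝ) * (b * ((genExps N).card : ℝ)) := by
          ring
      _ ≤ _ := mul_le_mul_of_nonneg_left (hb x hx) (Nat.cast_nonneg _)
  exact le_of_mul_le_mul_left hle (Nat.cast_pos.mpr (genExps_card_pos hN1))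

end CfsgLib.ExtremelyClosedOdd
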