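import Cfsg.Agent.ExtremelyClosedOdd.Average
import Cfsg.Agent.Glauberman.Cyclic
import Cfsg.Agent.Glauberman.Constituent
import Cfsg.Agent.Blocks.Orth.Blocks
import Cfsg.Agent.Blocks.Basic.Local

/-!
# The moment argument for a normal `p`-complement

* `eq_one_of_commute`: if `G = K H` with `K` a normal `p'`-group and `H` extremely closed and
  normally generating, then `H` acts on `K` without fixed points.
-/

set_option autoImplicit false
set_option linter.unusedSectionVars false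
set_option linter.style.haveILetI false

namespace CfsgLib.ExtremelyClosedOdd

open Cfsg CfsgLib.Chars CfsgLib.Chars.Induced
open scoped ComplexConjugate CfsgLib.Glauberman Pointwise

universe u

variable {G : Type u} [Group G]

/-- A character whose restriction to `N` is irreducible restricts irreducibly above `N`. -/
theorem isIrrCharacter_restrict_above [Finite G] (χ : IrrCharacter G) {N T : Subgroup G}
    (hNT : N ≤ T) (h : IsIrrCharacter N (fun n : N => (χ : G → ℂ) n)) :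
    IsIrrCharacter T (fun t : T => (χ : G → ℂ) t) := by
  obtain ⟨n, ρ, -, hρ⟩ := χ.2
  obtain ⟨m, σ, hσ, hσc⟩ := h
  obtain ⟨e, he⟩ := exists_intertwiner_unit σ hσ (ρ.comp N.subtype)
    (by rw [hσc, ← hρ]; rfl)
  have h1 := transportRep_isIrreducible σ e hσ
  rw [isIrreducible_iff_forall] at h1
  refine ⟨n, ρ.comp T.subtype, ?_, by rw [← hρ]; rfl⟩
  rw [isIrreducible_iff_forall]
  refine ⟨h1.1, fun q hq => h1.2 q fun x v hv => ?_⟩
  rw [transportRep_apply, he, e.apply_symm_apply]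
  exact hq ⟨x, hNT x.2⟩ v hv

/-- Character values at `p`-elements are nonzero for degrees prime to `p`. -/
theorem apply_ne_zero_of_pElement [Finite G] {p k : ℕ} (hp : p.Prime) (χ : IrrCharacter G)
    (hd : ¬ p ∣ charDegree (χ : G → ℂ)) {x : G} (hx : x ^ p ^ k = 1) : (χ : G → ℂ) x ≠ 0 := by
  classical
  obtain ⟨s, h1, h2, h3⟩ := exists_roots (isCharacter_coe χ) x
  have e1 := h3 1
  simp only [pow_one, Multiset.map_id'] at e1
  rw [e1, ← Multiset.map_toEnumFinset_fst s]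
  refine GaloisSum.sum_ne_zero_of_pow_eq_one (k := k) hp s.toEnumFinset Prod.fst (fun i hi => ?_) ?_
  · obtain ⟨c, hc⟩ := orderOf_dvd_iff_pow_eq_one.mpr hx
    rw [hc, pow_mul, h1 i.1 (Multiset.mem_of_mem_toEnumFinset hi), one_pow]
  · rwa [Multiset.card_toEnumFinset, show s.card = charDegree (χ : G → ℂ) from
      (charDegree_eq_of_map_one h2.symm).symm]

section

variable [Fintype G] (K : Subgroup G) [K.Normal]

open Classical in
/-- The irreducible characters whose restriction to `K` is irreducible. -/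
noncomputable def extSet : Finset (IrrCharacter G) :=
  Finset.univ.filter fun χ => IsIrrCharacter K (fun n : K => (χ : G → ℂ) n)

theorem mem_extSet {χ : IrrCharacter G} :
    χ ∈ extSet K ↔ IsIrrCharacter K (fun n : K => (χ : G → ℂ) n) := by
  simp [extSet]

theorem oneChar_mem_extSet : oneChar G ∈ extSet K := by
  rw [mem_extSet, show (fun n : K => (oneChar G : G → ℂ) n) = fun _ => 1 from
    funext fun n => oneChar_apply _]
  exact isIrrCharacter_one

/-- Multiplication by a linear character of `G ⧸ K`. -/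
noncomputable def twist (l : G ⧸ K →* ℂˣ) (χ : IrrCharacter G) : IrrCharacter G :=
  ⟨fun g => (l g : ℂ) * (χ : G → ℂ) g,
    isIrrCharacter_linear_mul χ.2 (l.comp (QuotientGroup.mk' K))⟩

theorem twist_apply (l : G ⧸ K →* ℂˣ) (χ : IrrCharacter G) (g : G) :
    (twist K l χ : G → ℂ) g = (l g : ℂ) * (χ : G → ℂ) g := rfl

theorem twist_apply_mem (l : G ⧸ K →* ℂˣ) (χ : IrrCharacter G) (n : K) :
    (twist K l χ : G → ℂ) n = (χ : G → ℂ) n := by
  rw [twist_apply, (QuotientGroup.eq_one_iff (n : G)).mpr n.2, map_one, Units.val_one, one_mul]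

theorem twist_mem_extSet (l : G ⧸ K →* ℂˣ) {χ : IrrCharacter G} (hχ : χ ∈ extSet K) :
    twist K l χ ∈ extSet K := by
  rw [mem_extSet] at hχ ⊢
  rwa [show (fun n : K => (twist K l χ : G → ℂ) n) = fun n : K => (χ : G → ℂ) n from
    funext (twist_apply_mem K l χ)]

/-- Columns in different cosets of `K` are orthogonal over `extSet K`. -/
theorem sum_extSet_eq_zero (hab : commutator (G ⧸ K) = ⊥) {x y : G}
    (hxy : (x : G ⧸ K) ≠ (y : G ⧸ K)) :
    ∑ χ ∈ extSet K, (χ : G → ℂ) x * conj ((χ : G → ℂ) y) = 0 := by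
  obtain ⟨l, hl⟩ := exists_linChar_ne_one (g := (x : G ⧸ K) * (y : G ⧸ K)⁻¹)
    (by rw [hab, Subgroup.mem_bot, mul_inv_eq_one]; exact hxy)
  have hS : ∑ χ ∈ extSet K, (χ : G → ℂ) x * conj ((χ : G → ℂ) y) =
      ((l ((x : G ⧸ K) * (y : G ⧸ K)⁻¹) : ℂˣ) : ℂ) *
        ∑ χ ∈ extSet K, (χ : G → ℂ) x * conj ((χ : G → ℂ) y) := by
    rw [Finset.mul_sum]
    refine (Finset.sum_nbij' (twist K l) (twist K l⁻¹) (fun χ hχ => twist_mem_extSet K l hχ)
      (fun χ hχ => twist_mem_extSet K _ hχ) (fun χ _ => ?_) (fun χ _ => ?_) fun χ _ => ?_).symm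
    · exact Subtype.ext (funext fun g => by simp [twist_apply])
    · exact Subtype.ext (funext fun g => by simp [twist_apply])
    · simp only [twist_apply, map_mul, Units.val_mul]
      have e : conj ((l (y : G ⧸ K) : ℂˣ) : ℂ) = ((l (y : G ⧸ K)⁻¹ : ℂˣ) : ℂ) :=
        conj_eq_map_inv (isCharacter_coe (linChar l)) (y : G ⧸ K)
      rw [e]
      ring
  have h1 : ((l ((x : G ⧸ K) * (y : G ⧸ K)⁻¹) : ℂˣ) : ℂ) ≠ 1 := fun e => hl (Units.ext e)
  by_contra hne
  exact h1 (mul_right_cancel₀ hne (hS.symm.trans (one_mul _).symm))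

variable {p : ℕ} [hp : Fact p.Prime] {H : Subgroup G}

theorem eq_one_of_mk_eq (hKH : K.IsComplement' H) {x y : G} (hx : x ∈ H) (hy : y ∈ H)
    (h : (x : G ⧸ K) = (y : G ⧸ K)) : x = y :=
  inv_mul_eq_one.mp (Subgroup.mem_bot.mp (hKH.disjoint.le_bot
    (Subgroup.mem_inf.mpr ⟨QuotientGroup.eq.mp h, mul_mem (inv_mem hx) hy⟩)))

theorem exists_mul_eq (hKH : K.IsComplement' H) (g : G) : ∃ k ∈ K, ∃ x ∈ H, g = k * x := by
  have h : g ∈ K ⊔ H := hKH.sup_eq_top ▸ Subgroup.mem_top g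
  obtain ⟨k, hk, x, hx, he⟩ := Subgroup.mem_sup_of_normal_left.mp h
  exact ⟨k, hk, x, hx, he.symm⟩

theorem commutator_quotient_eq_bot (hKH : K.IsComplement' H)
    (hab : ∀ x ∈ H, ∀ y ∈ H, Commute x y) : commutator (G ⧸ K) = ⊥ := by
  rw [_root_.commutator, Subgroup.commutator_eq_bot_iff_le_centralizer]
  rintro a - b -
  obtain ⟨g, rfl⟩ := QuotientGroup.mk'_surjective K a
  obtain ⟨g', rfl⟩ := QuotientGroup.mk'_surjective K b
  obtain ⟨k, hk, x, hx, rfl⟩ := exists_mul_eq K hKH g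
  obtain ⟨k', hk', x', hx', rfl⟩ := exists_mul_eq K hKH g'
  simp only [map_mul, (QuotientGroup.eq_one_iff k).mpr hk, (QuotientGroup.eq_one_iff k').mpr hk',
    QuotientGroup.mk'_apply, one_mul]
  rw [← QuotientGroup.mk_mul, ← QuotientGroup.mk_mul, (hab x' hx' x hx).eq]

theorem mem_of_regular (hK : K.IsComplement' H) (hH : IsPGroup p H) {z : G}
    (hz : ¬ p ∣ orderOf z) : z ∈ K := by
  obtain ⟨k, hk, x, hx, rfl⟩ := exists_mul_eq K hK z
  rw [← QuotientGroup.eq_one_iff]
  refine eq_one_of_orderOf (p := p) ?_ fun hd => hz (hd.trans (orderOf_map_dvd (QuotientGroup.mk' K) _))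
  obtain ⟨j, hj⟩ := exists_orderOf_pow hH hx
  have hd : orderOf ((k * x : G) : G ⧸ K) ∣ p ^ j := by
    rw [QuotientGroup.mk_mul, (QuotientGroup.eq_one_iff k).mpr hk, one_mul, ← hj]
    exact orderOf_map_dvd (QuotientGroup.mk' K) x
  obtain ⟨i, -, hi⟩ := (Nat.dvd_prime_pow hp.out).mp hd
  exact ⟨i, hi⟩

/-- A subgroup controlling `C(η)` is fixed-point-free inside `K`. -/
theorem fixFree_inf (hK : ¬ p ∣ Nat.card K) (hKH : K.IsComplement' H) {U : Subgroup G} {η : G}
    (hη : η ∈ H) (hab : ∀ x ∈ H, ∀ y ∈ H, Commute x y)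
    (hU : ∀ c, Commute η c → ∀ u ∈ U, c * u * c⁻¹ ∈ U)
    (hUN : ∀ u ∈ U, u ∈ Subgroup.normalizer (H : Set G) → u ∈ H) :
    FixFree p H ((K ⊓ Subgroup.centralizer ({η} : Set G)) ⊓ U) := by
  refine ⟨fun x hx u hu => ?_, fun hd => hK (hd.trans (Subgroup.card_dvd_of_le ?_)), fun u hu hc => ?_⟩
  · obtain ⟨⟨hu1, hu2⟩, hu3⟩ := hu
    refine ⟨⟨‹K.Normal›.conj_mem u hu1 x, ?_⟩, hU x (hab η hη x hx) u hu3⟩
    refine Subgroup.mem_centralizer_singleton_iff.mpr ?_
    have h1 : Commute η u := (Subgroup.mem_centralizer_singleton_iff.mp hu2).symm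
    exact ((((hab η hη x hx).mul_right h1).mul_right (hab η hη x hx).inv_right)).eq.symm
  · exact inf_le_left.trans inf_le_left
  · have hN : u ∈ Subgroup.normalizer (H : Set G) := mem_normalizer_of_conj_mem' fun y hy => by
      rw [← (hc y hy).eq, mul_inv_cancel_right]; exact hy
    exact Subgroup.mem_bot.mp (hKH.disjoint.le_bot
      (Subgroup.mem_inf.mpr ⟨hu.1.1, hUN u hu.2 hN⟩))

/-- The characters of `extSet K` are constant on `η C_M(η)`. -/
theorem apply_mul_eq_apply_extSet (hK : ¬ p ∣ Nat.card K) (hKH : K.IsComplement' H)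
    (hH : IsPGroup p H) (hab : ∀ x ∈ H, ∀ y ∈ H, Commute x y) {η : G} (hη : η ∈ H)
    {U : Subgroup G} (hHU : H ≤ U) (hU : ∀ c, Commute η c → ∀ u ∈ U, c * u * c⁻¹ ∈ U)
    (hUN : ∀ u ∈ U, u ∈ Subgroup.normalizer (H : Set G) → u ∈ H)
    {M : Subgroup G} (hM : FixFree p H M) {c : G} (hc : c ∈ M) (hcη : Commute η c)
    {χ : IrrCharacter G} (hχ : χ ∈ extSet K) : (χ : G → ℂ) (η * c) = (χ : G → ℂ) η := by
  classical
  set L := K ⊓ Subgroup.centralizer ({η} : Set G) with hL
  set L0 := L ⊓ U with hL0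
  have hF0 : FixFree p H L0 := fixFree_inf K hK hKH hη hab hU hUN
  have hcent : ∀ x : G, x ∈ Subgroup.centralizer ({η} : Set G) ↔ Commute η x := fun x => by
    rw [Subgroup.mem_centralizer_singleton_iff]; exact ⟨Eq.symm, Eq.symm⟩
  -- `c` lies in `L0`
  have hcK : c ∈ K := mem_of_regular K hKH hH fun hd =>
    hM.ndvd (hd.trans (M.orderOf_dvd_natCard hc))
  have hcU : c ∈ U := by
    have h1 : c ∈ (M ⊓ Subgroup.centralizer ({η} : Set G)) ⊓ U := by
      refine mem_of_conj_mem_coset hH (fun x hx m hm => ?_) (fun hd => hM.ndvd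
        (hd.trans (Subgroup.card_dvd_of_le (inf_le_left.trans inf_le_left)))) (fun x hx => ?_)
        (fun d hd hfix => ?_)
      · obtain ⟨⟨hm1, hm2⟩, hm3⟩ := hm
        exact ⟨⟨hM.conj_mem x hx m hm1, (hcent _).mpr (((hab η hη x hx).mul_right
          ((hcent m).mp hm2)).mul_right (hab η hη x hx).inv_right)⟩, hU x (hab η hη x hx) m hm3⟩
      · refine Subgroup.mem_inf.mpr ⟨Subgroup.mem_inf.mpr
          ⟨mul_mem (inv_mem hc) (hM.conj_mem x hx c hc), (hcent _).mpr
            (hcη.inv_right.mul_right (((hab η hη x hx).mul_right hcη).mul_right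
              (hab η hη x hx).inv_right))⟩, ?_⟩
        rw [show c⁻¹ * (x * c * x⁻¹) = c⁻¹ * x * c⁻¹⁻¹ * x⁻¹ by group]
        exact mul_mem (hU _ hcη.inv_right x (hHU hx)) (inv_mem (hHU hx))
      · have hdM : d ∈ M := by
          simpa using mul_mem hc (Subgroup.mem_inf.mp (Subgroup.mem_inf.mp hd).1).1
        exact hM.fixed d hdM hfix
    exact h1.2
  have hcL : c ∈ L := ⟨hcK, (hcent c).mpr hcη⟩
  -- the cyclic extension
  set Γ := K ⊔ Subgroup.zpowers η with hΓ
  have hKΓ : K ≤ Γ := le_sup_left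
  have hηΓ : η ∈ Γ := Subgroup.mem_sup_right (Subgroup.mem_zpowers η)
  have hLK : L ≤ K := inf_le_left
  let s : Γ := ⟨η, hηΓ⟩
  haveI : (K.subgroupOf Γ).Normal := Subgroup.normal_subgroupOf
  have hCA : Glauberman.CyclicAction (K.subgroupOf Γ) (L.subgroupOf Γ) s := by
    refine ⟨inferInstance, ?_, ?_, fun x => ?_⟩
    · rw [eq_top_iff]
      intro g _
      obtain ⟨k, hk, t, ht, he⟩ := Subgroup.mem_sup_of_normal_left.mp g.2
      obtain ⟨i, rfl⟩ := Subgroup.mem_zpowers_iff.mp ht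
      rw [show g = (⟨k, hKΓ hk⟩ : Γ) * s ^ i from Subtype.ext (by simp [s, he])]
      exact mul_mem (Subgroup.mem_sup_left hk)
        (Subgroup.mem_sup_right (zpow_mem (Subgroup.mem_zpowers s) i))
    · rw [Nat.card_congr (Subgroup.subgroupOfEquivOfLe hKΓ).toEquiv,
        show orderOf s = orderOf η from Subgroup.orderOf_mk η hηΓ]
      obtain ⟨j, hj⟩ := exists_orderOf_pow hH hη
      rw [hj]
      exact ((hp.out.coprime_iff_not_dvd.mpr hK).pow_left j).symm
    · rw [Subgroup.mem_subgroupOf, Subgroup.mem_subgroupOf, hL, Subgroup.mem_inf, hcent]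
      exact and_congr_right fun _ => ⟨fun h => Subtype.ext h.eq.symm,
        fun h => (congrArg Subtype.val h).symm⟩
  let χΓ : IrrCharacter Γ := ⟨_, isIrrCharacter_restrict_above χ hKΓ ((mem_extSet K).mp hχ)⟩
  let θ : IrrCharacter (K.subgroupOf Γ) := ⟨fun n => (χ : G → ℂ) ((n : Γ) : G),
    isIrrCharacter_comp ((mem_extSet K).mp hχ) (Subgroup.subgroupOfEquivOfLe hKΓ).toMonoidHom
      (Subgroup.subgroupOfEquivOfLe hKΓ).surjective⟩
  haveI := Fintype.ofFinite Γ
  haveI := Fintype.ofFinite (K.subgroupOf Γ)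
  haveI := Fintype.ofFinite (L.subgroupOf Γ)
  obtain ⟨χh, hχh, hdet⟩ := hCA.exists_ext (χ := θ)
    (hCA.invariant_of_ext (χh := χΓ) fun _ => rfl)
  obtain ⟨β', hβ'⟩ := gallagher_exists χh θ hχh χΓ (by
    rw [show (fun n : K.subgroupOf Γ => (χΓ : Γ → ℂ) n) = (θ : K.subgroupOf Γ → ℂ) from rfl,
      mult_ne_zero_iff (isCharacter_coe θ), classInner_irr_self]
    exact one_ne_zero)
  obtain ⟨l, rfl⟩ := exists_linChar_eq β' (by
    have h1 := congrFun hβ' 1
    rw [show (χΓ : Γ → ℂ) 1 = (χh : Γ → ℂ) 1 from (hχh 1).symm, QuotientGroup.mk_one] at h1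
    exact mul_left_cancel₀ (map_one_ne_zero χh) (h1.symm.trans (mul_one _).symm))
  obtain ⟨β0, ε, hε, hsign, -⟩ := hCA.exists_sign hχh hdet
  set κ : ℂ := (ε : ℂ) * ((l (s : Γ ⧸ K.subgroupOf Γ) : ℂˣ) : ℂ) with hκdef
  have hκ : κ ≠ 0 := mul_ne_zero (by rcases hε with rfl | rfl <;> simp) (Units.ne_zero _)
  let e : L ≃* L.subgroupOf Γ := (Subgroup.subgroupOfEquivOfLe (hLK.trans hKΓ)).symm
  let β : IrrCharacter L := Glauberman.irrPull e β0
  have hval : ∀ x : L, (χ : G → ℂ) ((x : G) * η) = κ * (β : L → ℂ) x := by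
    intro x
    have h1 := congrFun hβ' (((e x : Γ)) * s)
    rw [hsign, QuotientGroup.mk_mul,
      (QuotientGroup.eq_one_iff _).mpr (show ((e x : Γ)) ∈ K.subgroupOf Γ from hLK x.2), one_mul] at h1
    rw [hκdef, show (χ : G → ℂ) ((x : G) * η) = (χΓ : Γ → ℂ) ((e x : Γ) * s) from rfl, h1]
    simp only [linChar_apply, β, Glauberman.irrPull_apply]
    ring
  -- an invariant constituent below
  have hnorm : ∀ x ∈ H, ∀ g ∈ L, x * g * x⁻¹ ∈ L := fun x hx g hg =>
    ⟨‹K.Normal›.conj_mem g hg.1 x, (hcent _).mpr (((hab η hη x hx).mul_right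
      ((hcent g).mp hg.2)).mul_right (hab η hη x hx).inv_right)⟩
  have hinv : ∀ x ∈ H, ∀ g g' : L, (g' : G) = x * g * x⁻¹ → (β : L → ℂ) g' = (β : L → ℂ) g := by
    intro x hx g g' hg
    refine mul_left_cancel₀ hκ ?_
    rw [← hval, ← hval, hg, ← isClassFunction_coe χ ((g : G) * η) x]
    refine congrArg (χ : G → ℂ) ?_
    calc x * (g : G) * x⁻¹ * η = x * g * (x⁻¹ * η) := mul_assoc _ _ _
      _ = x * g * (η * x⁻¹) := by rw [((hab η hη x hx).inv_right).eq]
      _ = x * ((g : G) * η) * x⁻¹ := by group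
  haveI hL0n : (L0.subgroupOf L).Normal := ⟨fun n hn g => by
    rw [Subgroup.mem_subgroupOf] at hn ⊢
    exact ⟨(g * n * g⁻¹).2, hU _ ((hcent _).mp g.2.2) _ hn.2⟩⟩
  haveI := Fintype.ofFinite L0
  haveI := Fintype.ofFinite L
  haveI := Fintype.ofFinite (L0.subgroupOf L)
  have hcop : (L0.relIndex L).Coprime (Nat.card H) := by
    obtain ⟨j, hj⟩ := hH.exists_card_eq
    rw [hj]
    refine Nat.Coprime.pow_right j ((hp.out.coprime_iff_not_dvd.mpr fun hd => hK ?_).symm)
    exact (hd.trans (Subgroup.relIndex_dvd_card L0 L)).trans (Subgroup.card_dvd_of_le hLK)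
  haveI : Group.IsSolvable H := Group.isSolvable_of_comm fun a b => Subtype.ext (hab _ a.2 _ b.2).eq
  obtain ⟨θ0, hθ0, hfix⟩ := Glauberman.exists_fixed_below L H L0 hnorm inf_le_left hF0.conj_mem
    hcop (Or.inl inferInstance) β hinv
  have h0 : θ0 = oneChar L0 := hF0.eq_oneChar hH θ0 hfix
  subst h0
  have hker : L0.subgroupOf L ≤ charKer (β : L → ℂ) := by
    refine le_charKer_of_mult_one _ β ?_
    rw [mult_ne_zero_iff (isCharacter_restrict (isCharacter_coe β) _)]
    rw [show oneChar (L0.subgroupOf L) =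
      Glauberman.irrPull (Subgroup.subgroupOfEquivOfLe (inf_le_left : L0 ≤ L)) (oneChar L0) from
      Subtype.ext (funext fun n => by simp)]
    rwa [Glauberman.classInner_subgroupOf (inf_le_left : L0 ≤ L) β]
  have h1 : (β : L → ℂ) ⟨c, hcL⟩ = (β : L → ℂ) 1 :=
    (le_charKer_iff (isCharacter_coe β)).mp hker ⟨c, hcL⟩ (Subgroup.mem_subgroupOf.mpr ⟨hcL, hcU⟩)
  rw [hcη.eq, show (χ : G → ℂ) η = (χ : G → ℂ) (((1 : L) : G) * η) by simp, hval 1,
    ← h1, ← hval]

/-- **`H` acts on its normal complement without fixed points.** -/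
theorem eq_one_of_commute (hp2 : p ≠ 2) (h : EC p H) (hne : H ≠ ⊥)
    (hcl : Subgroup.normalClosure (H : Set G) = ⊤) (hK : ¬ p ∣ Nat.card K)
    (hKH : K.IsComplement' H)
    (hU : ∀ η ∈ H, η ≠ 1 → ∃ U : Subgroup G, H ≤ U ∧
      (∀ c, Commute η c → ∀ u ∈ U, c * u * c⁻¹ ∈ U) ∧
      ∀ u ∈ U, u ∈ Subgroup.normalizer (H : Set G) → u ∈ H)
    {k : G} (hk : k ∈ K) (hc : ∀ x ∈ H, Commute x k) : k = 1 := by
  classical
  by_contra hk1
  have hH := h.isPGroup
  have hab : ∀ x ∈ H, ∀ y ∈ H, Commute x y := fun x hx y hy => h.commute hx hy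
  have hcomm := commutator_quotient_eq_bot K hKH hab
  have hX : BlockLike p H (extSet K) := by
    refine ⟨oneChar_mem_extSet K, fun x hx y hy _ _ hxy => ?_, fun z hz w hw hw1 => ?_, ?_⟩
    · exact sum_extSet_eq_zero K hcomm fun e =>
        hxy (eq_one_of_mk_eq K hKH hx hy e ▸ IsConj.refl x)
    · refine sum_extSet_eq_zero K hcomm fun e => hw1 ?_
      refine (eq_one_of_mk_eq K hKH (one_mem H) hw ?_).symm
      rw [← e, (QuotientGroup.eq_one_iff z).mpr (mem_of_regular K hKH hH hz), QuotientGroup.mk_one]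
    · intro M hM η hη hη1 c hcM hcη χ hχ
      obtain ⟨U, hHU, hU1, hU2⟩ := hU η hη hη1
      exact apply_mul_eq_apply_extSet K hK hKH hH hab hη hHU hU1 hU2 hM hcM hcη hχ
  have hmom := moment_bound hp2 hH hab h.exists_decomp hcl hne hX
  obtain ⟨n, hn⟩ := hH.exists_card_eq
  have hn0 : n ≠ 0 := fun e => hne (Subgroup.card_eq_one.mp (by rw [hn, e, pow_zero]))
  have hN1 : 1 < p ^ n := Nat.one_lt_pow hn0 hp.out.one_lt
  have hpow : ∀ x ∈ H, x ^ p ^ n = 1 := fun x hx =>
    orderOf_dvd_iff_pow_eq_one.mp (hn ▸ Subgroup.orderOf_dvd_natCard H hx)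
  -- two invariant characters of `K`
  have hnormK : ∀ x ∈ H, ∀ g ∈ K, x * g * x⁻¹ ∈ K := fun x _ g hg => ‹K.Normal›.conj_mem g hg x
  letI := Glauberman.conjSubAction K H hnormK
  haveI := Fintype.ofFinite K
  set C := (K ⊓ Subgroup.centralizer (H : Set G)).subgroupOf K with hC
  have hfix : ∀ g : K, g ∈ MulAction.fixedPoints H K ↔ ∃ c : C, C.subtype c = g := by
    intro g
    rw [Glauberman.fixed_iff_mem hnormK]
    exact ⟨fun hg => ⟨⟨g, hg⟩, rfl⟩, by rintro ⟨c, rfl⟩; exact c.2⟩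
  have hkC : (⟨k, hk⟩ : K) ∈ C := Subgroup.mem_subgroupOf.mpr
    (Subgroup.mem_inf.mpr ⟨hk, Subgroup.mem_centralizer_iff.mpr fun x hx => (hc x hx).eq⟩)
  obtain ⟨ξ, hξ⟩ := exists_not_le_charKer (N := (⊤ : Subgroup C)) fun e => hk1 (by
    have h1 : (⟨⟨k, hk⟩, hkC⟩ : C) ∈ (⊥ : Subgroup C) := e ▸ Subgroup.mem_top _
    exact congrArg (fun x : C => ((x : K) : G)) (Subgroup.mem_bot.mp h1))
  have hξ1 : ξ ≠ oneChar C := fun e => hξ (by
    rw [e, le_charKer_iff (isCharacter_coe _)]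
    intro x _
    simp)
  set eG := Glauberman.glaubermanEquiv (p := p) hH hK C.subtype Subtype.val_injective hfix
  obtain ⟨θ, hθfix, hθ1⟩ : ∃ θ : IrrCharacter K,
      θ ∈ MulAction.fixedPoints H (IrrCharacter K) ∧ θ ≠ oneChar K := by
    by_contra hall
    push Not at hall
    refine hξ1 (eG.symm.injective (Subtype.ext ?_))
    rw [hall _ (eG.symm ξ).2, hall _ (eG.symm (oneChar C)).2]
  have hθinv : ∀ g : G, conjFun K g (θ : K → ℂ) = θ := conjFun_eq_of_forall fun g m => by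
    obtain ⟨a, ha, x, hx, rfl⟩ := exists_mul_eq K hKH g
    set m' : K := ⟨x * m * x⁻¹, hnormK x hx m m.2⟩
    refine Eq.trans ?_ ((Glauberman.invariant_iff hnormK θ).mpr hθfix x hx m m' rfl)
    rw [← isClassFunction_coe θ m' ⟨a, ha⟩]
    exact congrArg (θ : K → ℂ) (Subtype.ext
      (show a * x * (m : G) * (a * x)⁻¹ = a * (x * (m : G) * x⁻¹) * a⁻¹ by group))
  have hidx : K.index = p ^ n := hn ▸ hKH.symm.index_eq_card
  obtain ⟨χ1, hχ1, -, -⟩ := exists_canonical_extension θ hθinv (coe_charDegree θ).symm (by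
    rw [hidx]
    refine Nat.Coprime.pow_left n (hp.out.coprime_iff_not_dvd.mpr fun hd => ?_)
    rcases (Nat.Prime.dvd_mul hp.out).mp hd with hd | hd
    · exact hK (hd.trans (detOrder_dvd_card (isCharacter_coe θ)))
    · exact hK (hd.trans (charDegree_dvd_card θ)))
  have hχ1mem : χ1 ∈ extSet K := by
    rw [mem_extSet, show (fun m : K => (χ1 : G → ℂ) m) = (θ : K → ℂ) from funext hχ1]
    exact θ.2
  have hdeg : ∀ χ ∈ extSet K, ¬ p ∣ charDegree (χ : G → ℂ) := by
    intro χ hχ hd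
    have h1 := charDegree_dvd_card (⟨_, (mem_extSet K).mp hχ⟩ : IrrCharacter K)
    exact hK (hd.trans h1)
  have hne0 : ∀ χ ∈ extSet K, ∀ x ∈ H, (χ : G → ℂ) x ≠ 0 := fun χ hχ x hx =>
    apply_ne_zero_of_pElement hp.out χ (hdeg χ hχ) (hpow x hx)
  -- `extSet K` has at least `2 |H|` members
  have hcard : 2 * (Nat.card H : ℝ) ≤ ((extSet K).card : ℝ) := by
    haveI := Fintype.ofFinite (G ⧸ K →* ℂˣ)
    set base : Bool → IrrCharacter G := fun b => if b then χ1 else oneChar G with hbase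
    have hbmem : ∀ b, base b ∈ extSet K := by
      intro b; cases b
      · exact oneChar_mem_extSet K
      · exact hχ1mem
    set F : Bool × (G ⧸ K →* ℂˣ) → IrrCharacter G := fun q => twist K q.2 (base q.1) with hF
    have hinj : Function.Injective F := by
      rintro ⟨b, l⟩ ⟨b', l'⟩ he
      have hbb : b = b' := by
        by_contra hne'
        have h1 : ∀ m : K, (base b : G → ℂ) m = (base b' : G → ℂ) m := fun m => by
          rw [← twist_apply_mem K l (base b) m, ← twist_apply_mem K l' (base b') m]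
          exact congrFun (congrArg Subtype.val he) m
        refine hθ1 (Subtype.ext (funext fun m => ?_))
        have h2 := h1 m
        cases b <;> cases b' <;> simp [hbase, hχ1] at h2 hne' ⊢
        · exact h2.symm
        · exact h2
      subst hbb
      refine Prod.ext rfl (MonoidHom.ext fun q => ?_)
      obtain ⟨g, rfl⟩ := QuotientGroup.mk'_surjective K q
      obtain ⟨a, ha, x, hx, rfl⟩ := exists_mul_eq K hKH g
      have h1 := congrFun (congrArg Subtype.val he) x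
      simp only [hF, twist_apply] at h1
      have h2 := mul_right_cancel₀ (hne0 _ (hbmem b) x hx) h1
      simp only [map_mul, QuotientGroup.mk'_apply, (QuotientGroup.eq_one_iff a).mpr ha, map_one,
        one_mul]
      exact Units.ext h2
    have h1 := Finset.card_le_card (s := Finset.univ.image F) (t := extSet K)
      (Finset.image_subset_iff.mpr fun q _ => twist_mem_extSet K _ (hbmem _))
    rw [Finset.card_image_of_injective _ hinj, Finset.card_univ, Fintype.card_prod, Fintype.card_bool,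
      ← Nat.card_eq_fintype_card, card_monoidHom_units, hcomm, Subgroup.index_bot,
      ← Subgroup.index_eq_card, hidx, ← hn] at h1
    exact_mod_cast h1
  -- the Galois average
  obtain ⟨M, hM⟩ := Blocks.exists_isPModular p hp.out
  haveI := Blocks.isMaximal_of_isPModular hM
  have hlow : 2 * (Nat.card H : ℝ) * pairCount H ≤ pairSum (extSet K) H := by
    refine mul_pairCount_le_pairSum _ hn hN1 _ fun η hη => ?_
    obtain ⟨hηH, -⟩ := mem_sharp.mp hη
    have h1 : ∀ χ ∈ extSet K, ((genExps (p ^ n)).card : ℝ) ≤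
        ∑ i ∈ genExps (p ^ n), ‖(χ : G → ℂ) (η ^ i)‖ ^ 2 := by
      intro χ hχ
      have h2 := pow_mul_card_le_sum_nsq (k := 0) hM {χ} (pow_pos hp.out.pos n) (hpow η hηH)
        (fun i _ => nsq_pos (Finset.mem_singleton_self χ) (hne0 χ hχ _ (pow_mem hηH i)))
        fun i _ => ⟨_, ?_, (by rw [pow_zero, one_mul])⟩
      · simpa [nsq] using h2
      · rw [nsq, Finset.sum_singleton, ← Complex.normSq_eq_norm_sq, ← Complex.mul_conj,
          ← map_inv_eq_conj (isCharacter_coe χ)]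
        exact Blocks.memLocalRing_of_isIntegral ((isIntegral_apply (isCharacter_coe χ) _).mul
          (isIntegral_apply (isCharacter_coe χ) _))
    calc 2 * (Nat.card H : ℝ) * ((genExps (p ^ n)).card : ℝ)
        ≤ ((extSet K).card : ℝ) * ((genExps (p ^ n)).card : ℝ) :=
          mul_le_mul_of_nonneg_right hcard (Nat.cast_nonneg _)
      _ = ∑ _χ ∈ extSet K, ((genExps (p ^ n)).card : ℝ) := by
          rw [Finset.sum_const, nsmul_eq_mul]
      _ ≤ ∑ χ ∈ extSet K, ∑ i ∈ genExps (p ^ n), ‖(χ : G → ℂ) (η ^ i)‖ ^ 2 := Finset.sum_le_sum h1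
      _ = _ := Finset.sum_comm
  set hR : ℝ := (Nat.card H : ℝ) with hhR
  set den : ℝ := hR * ((p : ℝ) - 2) - ((p : ℝ) - 1) with hden
  have hp3 : (3 : ℝ) ≤ p := by
    have := hp.out.two_le
    exact_mod_cast show 3 ≤ p by omega
  have hhp : (p : ℝ) ≤ hR := by
    rw [hhR, hn]
    exact_mod_cast Nat.le_of_dvd (pow_pos hp.out.pos n) (dvd_pow_self p hn0)
  have hden1 : 1 ≤ den := by
    rw [hden]
    nlinarith [mul_le_mul_of_nonneg_right hhp (show (0 : ℝ) ≤ (p : ℝ) - 2 by linarith),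
      mul_le_mul_of_nonneg_right hp3 (show (0 : ℝ) ≤ (p : ℝ) - 3 by linarith)]
  have hh1 : 0 ≤ hR - 1 := by linarith
  have h1 : hR * (hR - 1) * (2 * den) < hR * (hR - 1) * (den + 1) :=
    calc hR * (hR - 1) * (2 * den) = 2 * hR * (hR - 1) * den := by ring
      _ ≤ 2 * hR * pairCount H * den := mul_le_mul_of_nonneg_right
          (mul_le_mul_of_nonneg_left (card_sharp_le_pairCount H) (by linarith)) (by linarith)
      _ ≤ pairSum (extSet K) H * den := mul_le_mul_of_nonneg_right hlow (by linarith)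
      _ < _ := hmom
  have h2 := lt_of_mul_lt_mul_left h1 (mul_nonneg (by linarith) hh1)
  linarith

end

end CfsgLib.ExtremelyClosedOdd
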