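import Cfsg.Prelude.Def_CaseTheorems
import Cfsg.Agent.Constrained.Basic
import Cfsg.Agent.S3020
import Cfsg.Agent.S3021
import Cfsg.Agent.Transfer.NormalPComplement
import Cfsg.Agent.Eq.Def_SubgroupEmbedding
import Mathlib.GroupTheory.Perm.Cycle.Type

/-!
# Extremely closed abelian `p`-subgroups: local lemmas

* `EC.exists_decomp`: `g = m * n` with `n` normalizing `H` and `m` in a `p'`-subgroup normalized by
  `H` on which `H` acts without fixed points.
* `FixFree.exists_conj`: an element `x (m y m⁻¹)` is conjugate to `(x y) c` with `c` commuting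
  with `x y`.
-/

set_option autoImplicit false
set_option linter.unusedSectionVars false
set_option linter.style.haveILetI false

namespace CfsgLib.ExtremelyClosedOdd

open Cfsg

open scoped Pointwise

universe u

variable {G : Type u} [Group G]

/-- An extremely closed abelian `p`-subgroup. -/
structure EC (p : ℕ) (H : Subgroup G) : Prop where
  isPGroup : IsPGroup p H
  comm : IsMulCommutative H
  closed : IsExtremelyClosed H

/-- A `p'`-subgroup normalized by `H` on which `H` acts without fixed points. -/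
structure FixFree (p : ℕ) (H M : Subgroup G) : Prop where
  conj_mem : ∀ h ∈ H, ∀ m ∈ M, h * m * h⁻¹ ∈ M
  ndvd : ¬ p ∣ Nat.card M
  fixed : ∀ m ∈ M, (∀ h ∈ H, Commute h m) → m = 1

theorem mem_normalizer_of_conj_mem' [Finite G] {H : Subgroup G} {g : G}
    (h : ∀ y ∈ H, g * y * g⁻¹ ∈ H) : g ∈ Subgroup.normalizer (H : Set G) := by
  refine Subgroup.mem_normalizer_iff_map_conj_eq.mpr ?_
  refine Subgroup.eq_of_le_of_card_ge ?_ (by rw [Subgroup.card_map_of_injective (MulAut.conj g).injective])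
  rintro _ ⟨y, hy, rfl⟩
  exact h y hy

section

variable [Finite G] {p : ℕ} [hp : Fact p.Prime] {H M : Subgroup G}

theorem exists_orderOf_pow (hH : IsPGroup p H) {x : G} (hx : x ∈ H) :
    ∃ j : ℕ, orderOf x = p ^ j := by
  obtain ⟨j, hj⟩ := IsPGroup.iff_orderOf.mp hH ⟨x, hx⟩
  exact ⟨j, by rwa [Subgroup.orderOf_mk] at hj⟩

theorem eq_one_of_orderOf {x : G} (h1 : ∃ j : ℕ, orderOf x = p ^ j) (h2 : ¬ p ∣ orderOf x) :
    x = 1 := by
  obtain ⟨j, hj⟩ := h1
  rw [← orderOf_eq_one_iff, hj]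
  rcases Nat.eq_zero_or_pos j with rfl | hj0
  · exact pow_zero p
  · exact absurd (hj ▸ dvd_pow_self p hj0.ne') h2

theorem eq_one_of_mem_of_mem (hH : IsPGroup p H) (hM : ¬ p ∣ Nat.card M) {x : G} (hxH : x ∈ H)
    (hxM : x ∈ M) : x = 1 :=
  eq_one_of_orderOf (exists_orderOf_pow hH hxH)
    fun hd => hM (hd.trans (M.orderOf_dvd_natCard hxM))

/-- Powers in a coset of a normalized subgroup. -/
theorem exists_mul_pow_eq {K : Subgroup G} {x r : G} (hx : ∀ s ∈ K, x * s * x⁻¹ ∈ K) (hr : r ∈ K) :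
    ∀ i : ℕ, ∃ s ∈ K, (r * x) ^ i = s * x ^ i := by
  intro i
  induction i with
  | zero => exact ⟨1, one_mem K, by simp⟩
  | succ i ih =>
    obtain ⟨s, hs, he⟩ := ih
    refine ⟨r * (x * s * x⁻¹), mul_mem hr (hx s hs), ?_⟩
    rw [pow_succ', he, pow_succ']
    group

/-- A `p`-element congruent to a `p`-regular element modulo a normalized `p'`-subgroup is
trivial. -/
theorem eq_one_of_mul_regular {K : Subgroup G} (hK : ¬ p ∣ Nat.card K) {x r : G}
    (hx : ∀ s ∈ K, x * s * x⁻¹ ∈ K) (hr : r ∈ K) (hxp : ∃ j : ℕ, orderOf x = p ^ j)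
    (hreg : ¬ p ∣ orderOf (r * x)) : x = 1 := by
  obtain ⟨s, hs, he⟩ := exists_mul_pow_eq hx hr (orderOf (r * x))
  rw [pow_orderOf_eq_one] at he
  have hm : x ^ orderOf (r * x) ∈ K := by rw [eq_inv_of_mul_eq_one_right he.symm]; exact inv_mem hs
  have hcop : Nat.Coprime (orderOf x) (orderOf (r * x)) := by
    obtain ⟨j, hj⟩ := hxp
    rw [hj]
    exact (hp.out.coprime_iff_not_dvd.mpr hreg).pow_left j
  have h1 : orderOf (x ^ orderOf (r * x)) = orderOf x := hcop.orderOf_pow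
  exact eq_one_of_orderOf hxp fun hd => hK ((h1 ▸ hd).trans (K.orderOf_dvd_natCard hm))

/-- An element whose conjugates under `H` lie in its coset of an invariant subgroup of a
fixed-point-free group lies in that subgroup. -/
theorem mem_of_conj_mem_coset (hH : IsPGroup p H) {L0 : Subgroup G}
    (hL0 : ∀ h ∈ H, ∀ m ∈ L0, h * m * h⁻¹ ∈ L0) (hcard : ¬ p ∣ Nat.card L0) {c : G}
    (hc : ∀ h ∈ H, c⁻¹ * (h * c * h⁻¹) ∈ L0)
    (hfix : ∀ d : G, c⁻¹ * d ∈ L0 → (∀ h ∈ H, Commute h d) → d = 1) : c ∈ L0 := by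
  let X := {d : G // c⁻¹ * d ∈ L0}
  let : MulAction H X :=
    { smul := fun h d => ⟨h.1 * d.1 * h.1⁻¹, by
        have e : c⁻¹ * (h.1 * d.1 * h.1⁻¹) =
            c⁻¹ * (h.1 * c * h.1⁻¹) * (h.1 * (c⁻¹ * d.1) * h.1⁻¹) := by group
        rw [e]
        exact mul_mem (hc h.1 h.2) (hL0 h.1 h.2 _ d.2)⟩
      one_smul := fun d => Subtype.ext (by
        show ((1 : H) : G) * d.1 * ((1 : H) : G)⁻¹ = d.1
        simp)
      mul_smul := fun a b d => Subtype.ext (by
        show ((a * b : H) : G) * d.1 * ((a * b : H) : G)⁻¹ = a.1 * (b.1 * d.1 * b.1⁻¹) * a.1⁻¹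
        simp [mul_assoc]) }
  have hX : Nat.card X = Nat.card L0 :=
    Nat.card_congr ((Equiv.mulLeft c⁻¹).subtypeEquiv fun d => Iff.rfl)
  obtain ⟨⟨d, hd⟩, hdfix⟩ := hH.nonempty_fixed_point_of_prime_not_dvd_card X (by rwa [hX])
  have hd1 : d = 1 := hfix d hd fun h hh =>
    mul_inv_eq_iff_eq_mul.mp (congrArg Subtype.val (hdfix ⟨h, hh⟩))
  rw [hd1, mul_one] at hd
  exact inv_mem_iff.mp hd

namespace FixFree

variable (hF : FixFree p H M)

include hF

/-- The conjugacy representative of `x (m y m⁻¹)`. -/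
theorem exists_conj (hH : IsPGroup p H) {x y m : G} (hx : x ∈ H) (hy : y ∈ H) (hm : m ∈ M) :
    (x * y = 1 → ¬ p ∣ orderOf (x * (m * y * m⁻¹))) ∧
    ∃ k : G, ∃ c ∈ M, Commute (x * y) c ∧ x * (m * y * m⁻¹) = k * ((x * y) * c) * k⁻¹ := by
  set η := x * y
  set z := x * (m * y * m⁻¹)
  have hη : η ∈ H := mul_mem hx hy
  set r := x * (m * (y * m⁻¹ * y⁻¹)) * x⁻¹ with hrdef
  have hr : r ∈ M := hF.conj_mem x hx _ (mul_mem hm (hF.conj_mem y hy _ (inv_mem hm)))
  have hz : z = r * η := by simp only [z, η, hrdef]; group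
  refine ⟨fun h1 hd => hF.ndvd (hd.trans (M.orderOf_dvd_natCard (by rwa [hz, h1, mul_one]))), ?_⟩
  obtain ⟨a, b, ha, hb, hab, ⟨j, hj⟩, hb'⟩ := Transfer.exists_pPart_decomposition (p := p) z
  obtain ⟨i, hi : z ^ i = b⟩ := Submonoid.mem_powers_iff _ _ |>.mp (mem_powers_iff_mem_zpowers.mpr hb)
  obtain ⟨s, hs, hsi⟩ := exists_mul_pow_eq (hF.conj_mem η hη) hr i
  rw [← hz, hi] at hsi
  have hbreg : ¬ p ∣ orderOf b := hp.out.coprime_iff_not_dvd.mp hb'.symm
  have hηi : η ^ i = 1 := eq_one_of_mul_regular hF.ndvd (hF.conj_mem _ (pow_mem hη i)) hs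
    (exists_orderOf_pow hH (pow_mem hη i)) (by rwa [← hsi])
  have hbM : b ∈ M := by rw [hsi, hηi, mul_one]; exact hs
  have hcomm : Commute a b := by
    obtain ⟨ia, rfl⟩ := Subgroup.mem_zpowers_iff.mp ha
    obtain ⟨ib, rfl⟩ := Subgroup.mem_zpowers_iff.mp hb
    exact Commute.zpow_zpow_self z ia ib
  have haM : a * η⁻¹ ∈ M := by
    have e : a * η⁻¹ = r * (η * b⁻¹ * η⁻¹) := by
      have : a = z * b⁻¹ := by rw [hab, mul_inv_cancel_right]
      rw [this, hz]; group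
    rw [e]
    exact mul_mem hr (hF.conj_mem η hη _ (inv_mem hbM))
  obtain ⟨l, hl⟩ := exists_orderOf_pow hH hη
  -- a fixed point of `k ↦ a k η⁻¹` on `M`
  have hmaps : ∀ k, k ∈ M → a * k * η⁻¹ ∈ M := fun k hk => by
    rw [show a * k * η⁻¹ = a * η⁻¹ * (η * k * η⁻¹) by group]
    exact mul_mem haM (hF.conj_mem η hη k hk)
  have hback : ∀ k, k ∈ M → a⁻¹ * k * η ∈ M := fun k hk => by
    rw [show a⁻¹ * k * η = η⁻¹ * ((a * η⁻¹)⁻¹ * k) * η⁻¹⁻¹ by group]
    exact hF.conj_mem _ (inv_mem hη) _ (mul_mem (inv_mem haM) hk)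
  let σ : Equiv.Perm M :=
    { toFun := fun k => ⟨a * k * η⁻¹, hmaps k k.2⟩
      invFun := fun k => ⟨a⁻¹ * k * η, hback k k.2⟩
      left_inv := fun k => Subtype.ext (by simp [mul_assoc])
      right_inv := fun k => Subtype.ext (by simp [mul_assoc]) }
  have hσ : ∀ (e : ℕ) (k : M), ((σ ^ e) k : G) = a ^ e * k * (η ^ e)⁻¹ := by
    intro e
    induction e with
    | zero => simp
    | succ e ih =>
      intro k
      rw [pow_succ', Equiv.Perm.mul_apply]
      show a * ((σ ^ e) k : G) * η⁻¹ = _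
      rw [ih, pow_succ', pow_succ]
      group
  have hσp : σ ^ p ^ (j + l) = 1 := Equiv.ext fun k => Subtype.ext (by
    rw [hσ, orderOf_dvd_iff_pow_eq_one.mp (hj.trans (pow_dvd_pow p (Nat.le_add_right j l))),
      orderOf_dvd_iff_pow_eq_one.mp (hl ▸ pow_dvd_pow p (Nat.le_add_left l j))]
    simp)
  classical
  haveI := Fintype.ofFinite M
  obtain ⟨k, hk⟩ : ∃ k : M, σ k = k := by
    by_contra hne
    push Not at hne
    refine hF.ndvd ?_
    have h0 : σ.support = Finset.univ := Finset.eq_univ_iff_forall.mpr fun k =>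
      Equiv.Perm.mem_support.mpr (hne k)
    have := Equiv.Perm.card_compl_support_modEq hσp
    rw [h0, Finset.compl_univ, Finset.card_empty] at this
    rw [Nat.card_eq_fintype_card]
    exact Nat.modEq_zero_iff_dvd.mp this.symm
  have hak : a * (k : G) = k * η :=
    mul_inv_eq_iff_eq_mul.mp (congrArg Subtype.val hk)
  refine ⟨k, (k : G)⁻¹ * b * k, mul_mem (mul_mem (inv_mem k.2) hbM) k.2, ?_, ?_⟩
  · have hη' : η = (k : G)⁻¹ * a * k := by rw [mul_assoc, hak, inv_mul_cancel_left]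
    rw [hη']
    have e := hcomm.map (MulAut.conj (k : G)⁻¹).toMonoidHom
    simpa using e
  · calc z = a * b := hab
      _ = (a * k) * ((k : G)⁻¹ * b * k) * (k : G)⁻¹ := by group
      _ = _ := by rw [hak]; group

end FixFree

namespace EC

variable (h : EC p H)

include h

omit [Finite G] hp in
theorem commute {x y : G} (hx : x ∈ H) (hy : y ∈ H) : Commute x y :=
  congrArg Subtype.val (h.comm.is_comm.comm (⟨x, hx⟩ : H) ⟨y, hy⟩)

theorem le_normalizer {Q : Subgroup G} (hQ : IsPGroup p Q) (hHQ : H ≤ Q) :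
    Q ≤ Subgroup.normalizer (H : Set G) :=
  Subgroup.le_normalizer.trans ((Cfsg.Agent.S3021.result H h.isPGroup h.closed).1 Q hQ hHQ)

/-- `g = m n` with `m` in a fixed-point-free subgroup and `n` normalizing `H`. -/
theorem exists_decomp (g : G) : ∃ M : Subgroup G, FixFree p H M ∧
    ∃ m ∈ M, ∃ n ∈ Subgroup.normalizer (H : Set G), g = m * n := by
  set T := H ⊔ H.map (MulAut.conj g).toMonoidHom with hT
  obtain ⟨hsup, -⟩ := Cfsg.Agent.S3020.result H h.isPGroup h.comm h.closed g T hT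
  set K0 := pPrimeCore p T
  set M := K0.map T.subtype with hMdef
  have hMT : M ≤ T := Subgroup.map_subtype_le K0
  have hHT : H ≤ T := le_sup_left
  have hMp : ¬ p ∣ Nat.card M := by
    rw [hMdef, Subgroup.card_map_of_injective Subtype.val_injective]
    exact Constrained.pPrimeCore_not_dvd
  have hnorm : ∀ t ∈ T, ∀ k ∈ M, t * k * t⁻¹ ∈ M := by
    rintro t ht _ ⟨k, hk, rfl⟩
    exact ⟨⟨t, ht⟩ * k * ⟨t, ht⟩⁻¹, (inferInstance : K0.Normal).conj_mem k hk _, rfl⟩
  have hdec : ∀ t ∈ T, ∃ x ∈ H, ∃ k ∈ M, t = x * k := by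
    intro t ht
    rw [← hsup] at ht
    have hHM : H ≤ Subgroup.normalizer (M : Set G) := fun x hx =>
      Subgroup.mem_normalizer_iff.mpr fun k => ⟨hnorm x (hHT hx) k, fun hk => by
        simpa [mul_assoc] using hnorm x⁻¹ (inv_mem (hHT hx)) _ hk⟩
    obtain ⟨x, hx, k, hk, he⟩ :
        t ∈ (H : Set G) * (M : Set G) := by
      rw [← Subgroup.coe_mul_of_left_le_normalizer_right H M hHM]
      exact ht
    exact ⟨x, hx, k, hk, he.symm⟩
  have hF : FixFree p H M := by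
    refine ⟨fun x hx k hk => hnorm x (hHT hx) k hk, hMp, fun m hm hc => ?_⟩
    refine eq_one_of_mem_of_mem h.isPGroup hMp ?_ hm
    have hmem : m ∈ T ⊓ Subgroup.normalizer (H : Set G) := Subgroup.mem_inf.mpr
      ⟨hMT hm, mem_normalizer_of_conj_mem' fun y hy => by
        rw [← (hc y hy).eq, mul_inv_cancel_right]; exact hy⟩
    rwa [show T ⊓ Subgroup.normalizer (H : Set G) = H from h.closed g] at hmem
  refine ⟨M, hF, ?_⟩
  -- Sylow conjugacy in `T`
  have hgT : H.map (MulAut.conj g).toMonoidHom ≤ T := le_sup_right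
  have hp1 : IsPGroup p (H.subgroupOf T) :=
    h.isPGroup.of_equiv (Subgroup.subgroupOfEquivOfLe hHT).symm
  have hp2 : IsPGroup p ((H.map (MulAut.conj g).toMonoidHom).subgroupOf T) :=
    ((h.isPGroup.map _).of_equiv (Subgroup.subgroupOfEquivOfLe hgT).symm)
  obtain ⟨P, hP⟩ := hp1.exists_le_sylow
  obtain ⟨P', hP'⟩ := hp2.exists_le_sylow
  obtain ⟨t, ht⟩ := MulAction.exists_smul_eq T P' P
  have hPH : ∀ y : T, y ∈ (P : Subgroup T) → (y : G) ∈ H := by
    intro y hy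
    obtain ⟨x, hx, k, hk, he⟩ := hdec y y.2
    have hyx : (⟨x, hHT hx⟩ : T)⁻¹ * y ∈ (P : Subgroup T) := mul_mem (inv_mem (hP hx)) hy
    obtain ⟨j, hj⟩ := IsPGroup.iff_orderOf.mp P.2 ⟨_, hyx⟩
    rw [Subgroup.orderOf_mk, ← Subgroup.orderOf_coe] at hj
    have hkk : (((⟨x, hHT hx⟩ : T)⁻¹ * y : T) : G) = k := by
      show x⁻¹ * (y : G) = k
      rw [he, inv_mul_cancel_left]
    rw [hkk] at hj
    rw [he, eq_one_of_orderOf ⟨j, hj⟩ fun hd => hMp (hd.trans (M.orderOf_dvd_natCard hk)), mul_one]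
    exact hx
  obtain ⟨x, hx, k, hk, htx⟩ := hdec t t.2
  have hmaps : ∀ y ∈ H, (k * g) * y * (k * g)⁻¹ ∈ H := by
    intro y hy
    have h1 : (⟨g * y * g⁻¹, hgT ⟨y, hy, rfl⟩⟩ : T) ∈ (P' : Subgroup T) :=
      hP' ⟨y, hy, rfl⟩
    have h2 : (t : G) * (g * y * g⁻¹) * (t : G)⁻¹ ∈ H := by
      refine hPH (t * ⟨g * y * g⁻¹, hgT ⟨y, hy, rfl⟩⟩ * t⁻¹) ?_
      rw [← ht]
      exact ⟨_, h1, rfl⟩
    have h3 := mul_mem (mul_mem (inv_mem hx) h2) hx
    rw [htx] at h3
    simpa [mul_assoc] using h3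
  exact ⟨k⁻¹, inv_mem hk, k * g, mem_normalizer_of_conj_mem' hmaps, (inv_mul_cancel_left k g).symm⟩

omit hp in
/-- Subgroups containing `H` inherit the hypothesis. -/
theorem subgroupOf {M : Subgroup G} (hM : H ≤ M) : EC p (H.subgroupOf M) := by
  refine ⟨h.isPGroup.of_equiv (Subgroup.subgroupOfEquivOfLe hM).symm, ?_, ?_⟩
  · exact ⟨⟨fun a b => Subtype.ext (Subtype.ext (congrArg Subtype.val
      (h.comm.is_comm.comm (⟨_, a.2⟩ : H) ⟨_, b.2⟩) :))⟩⟩
  intro g
  apply Subgroup.map_injective M.subtype_injective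
  have hcl := h.closed (g : G)
  rw [Subgroup.map_inf _ _ _ M.subtype_injective, Subgroup.map_sup, Subgroup.map_map,
    Subgroup.map_subgroupOf_eq_of_le hM, ← Subgroup.subgroupOf_normalizer_eq hM,
    Subgroup.subgroupOf_map_subtype,
    show M.subtype.comp (MulAut.conj g).toMonoidHom =
      (MulAut.conj (g : G)).toMonoidHom.comp M.subtype from MonoidHom.ext fun _ => rfl,
    ← Subgroup.map_map, Subgroup.map_subgroupOf_eq_of_le hM, ← inf_assoc, hcl,
    inf_eq_left]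
  exact hM

omit hp in
/-- The preimage of the normalizer in a quotient by a normal subgroup of `H`. -/
theorem mem_normalizer_of_map {Q : Subgroup G} [Q.Normal] (hQH : Q ≤ H) {x : G}
    (hx : QuotientGroup.mk' Q x ∈
      Subgroup.normalizer ((H.map (QuotientGroup.mk' Q) : Subgroup (G ⧸ Q)) : Set (G ⧸ Q))) :
    x ∈ Subgroup.normalizer (H : Set G) := by
  refine mem_normalizer_of_conj_mem' fun y hy => ?_
  have h1 : QuotientGroup.mk' Q (x * y * x⁻¹) ∈ H.map (QuotientGroup.mk' Q) := by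
    rw [map_mul, map_mul, map_inv]
    exact (Subgroup.mem_normalizer_iff.mp hx _).mp ⟨y, hy, rfl⟩
  obtain ⟨y', hy', he⟩ := h1
  have h3 := mul_mem hy' (hQH (QuotientGroup.eq.mp he))
  rwa [mul_inv_cancel_left] at h3

omit hp in
/-- Quotients by normal subgroups inside `H` inherit the hypothesis. -/
theorem map_mk (Q : Subgroup G) [Q.Normal] (hQH : Q ≤ H) :
    EC p (H.map (QuotientGroup.mk' Q)) := by
  set f := QuotientGroup.mk' Q with hf
  refine ⟨h.isPGroup.map f, ⟨⟨?_⟩⟩, ?_⟩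
  · rintro ⟨_, a, ha, rfl⟩ ⟨_, b, hb, rfl⟩
    apply Subtype.ext
    show f a * f b = f b * f a
    rw [← map_mul, ← map_mul]
    exact congrArg f (congrArg Subtype.val (h.comm.is_comm.comm (⟨a, ha⟩ : H) ⟨b, hb⟩) :)
  intro gb
  obtain ⟨g, rfl⟩ := QuotientGroup.mk'_surjective Q gb
  have hmap : (H.map f).map (MulAut.conj (f g)).toMonoidHom =
      (H.map (MulAut.conj g).toMonoidHom).map f := by
    rw [Subgroup.map_map, Subgroup.map_map]
    congr 1
  rw [hmap, ← Subgroup.map_sup]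
  refine le_antisymm ?_ (fun x hx => Subgroup.mem_inf.mpr ⟨?_, Subgroup.le_normalizer hx⟩)
  · rintro _ ⟨⟨t, ht, rfl⟩, htN⟩
    refine ⟨t, ?_, rfl⟩
    rw [← h.closed g]
    exact Subgroup.mem_inf.mpr ⟨ht, h.mem_normalizer_of_map hQH htN⟩
  · exact Subgroup.map_mono le_sup_left hx

end EC

end

end CfsgLib.ExtremelyClosedOdd
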