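import Cfsg.Agent.ExtremelyClosedOdd.Principal
import Cfsg.Agent.ExtremelyClosedOdd.Coprime

/-!
# Extremely closed abelian `p`-subgroups for odd `p`

* `concl`: the normal closure of `H` meets `N(H)` in `H`, and `G = N(H) O_{p'}(G)`.
-/

set_option autoImplicit false
set_option linter.unusedSectionVars false
set_option linter.style.haveILetI false

namespace CfsgLib.ExtremelyClosedOdd

open Cfsg

universe u

/-- The conclusion. -/
def Concl (p : ℕ) {G : Type u} [Group G] (H : Subgroup G) : Prop :=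
  Subgroup.normalClosure (H : Set G) ⊓ Subgroup.normalizer (H : Set G) = H ∧
    Subgroup.normalizer (H : Set G) ⊔ pPrimeCore p G = ⊤

variable {G : Type u} [Group G] [Finite G] {p : ℕ} [hp : Fact p.Prime] {H : Subgroup G}

theorem exists_mul_of_sup (hc : Concl p H) (g : G) :
    ∃ n ∈ Subgroup.normalizer (H : Set G), ∃ o ∈ pPrimeCore p G, g = n * o := by
  have hg : g ∈ Subgroup.normalizer (H : Set G) ⊔ pPrimeCore p G := hc.2 ▸ Subgroup.mem_top g
  rw [sup_comm] at hg
  obtain ⟨o, ho, n, hn, he⟩ := Subgroup.mem_sup_of_normal_left.mp hg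
  exact ⟨n, hn, n⁻¹ * o * n⁻¹⁻¹, (pPrimeCore_normal p G).conj_mem o ho _, by rw [← he]; group⟩

/-- The conjugating element can be taken in any normal subgroup containing `H`. -/
theorem EC.mem_of_decomp (h : EC p H) {K0 : Subgroup G} [K0.Normal] (hH : H ≤ K0) (g : G) :
    ∃ m ∈ K0, ∃ n ∈ Subgroup.normalizer (H : Set G), g = m * n := by
  obtain ⟨M, hF, m, hm, n, hn, rfl⟩ := h.exists_decomp g
  refine ⟨m, ?_, n, hn, rfl⟩
  refine mem_of_conj_mem_coset h.isPGroup (L0 := M ⊓ K0)
    (fun x hx k hk => ⟨hF.conj_mem x hx k hk.1, ‹K0.Normal›.conj_mem k hk.2 x⟩)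
    (fun hd => hF.ndvd (hd.trans (Subgroup.card_dvd_of_le inf_le_left))) (c := m)
    (fun x hx => Subgroup.mem_inf.mpr ⟨mul_mem (inv_mem hm) (hF.conj_mem x hx m hm), ?_⟩)
    (fun d hd hfix => ?_) |>.2
  · rw [show m⁻¹ * (x * m * x⁻¹) = m⁻¹ * x * m⁻¹⁻¹ * x⁻¹ by group]
    exact mul_mem (‹K0.Normal›.conj_mem x (hH hx) m⁻¹) (inv_mem (hH hx))
  · exact hF.fixed d (by simpa using mul_mem hm (Subgroup.mem_inf.mp hd).1) hfix

/-- The reduction to normally generating `H`. -/
theorem concl_of_ne_top (h : EC p H) (hne : Subgroup.normalClosure (H : Set G) ≠ ⊤)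
    (ih : ∀ (K : Type u) [Group K] [Finite K] (L : Subgroup K),
      Nat.card K < Nat.card G → EC p L → Concl p L) : Concl p H := by
  set K0 := Subgroup.normalClosure (H : Set G) with hK0
  have hHK : H ≤ K0 := Subgroup.le_normalClosure
  have hlt : Nat.card K0 < Nat.card G :=
    lt_of_le_of_ne (Subgroup.card_le_card_group K0) fun e => hne (Subgroup.eq_top_of_card_eq K0 e)
  have hc := ih K0 (H.subgroupOf K0) hlt (h.subgroupOf hHK)
  set Hs := H.subgroupOf K0 with hHs
  have htop : Subgroup.normalClosure (Hs : Set K0) = ⊤ := by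
    apply Subgroup.map_injective K0.subtype_injective
    rw [← MonoidHom.range_eq_map, Subgroup.range_subtype]
    refine le_antisymm (Subgroup.map_subtype_le _) ?_
    show Subgroup.closure (Group.conjugatesOfSet (H : Set G)) ≤ _
    rw [Subgroup.closure_le]
    intro y hy
    obtain ⟨x, hx, hxy⟩ := Group.mem_conjugatesOfSet_iff.mp hy
    obtain ⟨c, rfl⟩ := isConj_iff.mp hxy
    obtain ⟨m, hm, n, hn, rfl⟩ := h.mem_of_decomp hHK c
    refine ⟨⟨m, hm⟩ * ⟨n * x * n⁻¹, hHK ((Subgroup.mem_normalizer_iff.mp hn x).mp hx)⟩ *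
      (⟨m, hm⟩ : K0)⁻¹, Subgroup.normalClosure_normal.conj_mem _ (Subgroup.le_normalClosure ?_) _,
      by simp [mul_assoc]⟩
    exact (Subgroup.mem_normalizer_iff.mp hn x).mp hx
  have hN : ∀ x : K0, x ∈ Subgroup.normalizer (Hs : Set K0) ↔
      (x : G) ∈ Subgroup.normalizer (H : Set G) := fun x => by
    rw [hHs, ← Subgroup.subgroupOf_normalizer_eq hHK, Subgroup.mem_subgroupOf]
  have h1 : K0 ⊓ Subgroup.normalizer (H : Set G) = H := by
    refine le_antisymm (fun x hx => ?_) (le_inf hHK Subgroup.le_normalizer)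
    have h2 : (⟨x, hx.1⟩ : K0) ∈ Subgroup.normalClosure (Hs : Set K0) ⊓
        Subgroup.normalizer (Hs : Set K0) :=
      Subgroup.mem_inf.mpr ⟨htop ▸ Subgroup.mem_top _, (hN _).mpr hx.2⟩
    rw [hc.1] at h2
    exact h2
  refine ⟨h1, eq_top_iff.mpr fun g _ => ?_⟩
  obtain ⟨m, hm, n, hn, rfl⟩ := h.mem_of_decomp hHK g
  obtain ⟨n', hn', o, ho, he⟩ := exists_mul_of_sup hc ⟨m, hm⟩
  have he' : m = (n' : G) * o := congrArg Subtype.val he
  rw [he']
  exact mul_mem (mul_mem (Subgroup.mem_sup_left ((hN n').mp hn'))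
    (Subgroup.mem_sup_right (Constrained.map_pPrimeCore_subgroup_le K0 ⟨o, ho, rfl⟩)))
    (Subgroup.mem_sup_left hn)

/-- The centralizer data from the inductive hypothesis. -/
theorem centralizer_data (h : EC p H) {η : G} (hη : η ∈ H)
    (hc : Concl p (H.subgroupOf (Subgroup.centralizer ({η} : Set G)))) :
    (∀ K : Subgroup G, FixFree p H K → ∀ c ∈ K, Commute η c →
      c ∈ ZStar.coreC p (Subgroup.zpowers η)) ∧
    ∃ U : Subgroup G, H ≤ U ∧ (∀ c, Commute η c → ∀ u ∈ U, c * u * c⁻¹ ∈ U) ∧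
      ∀ u ∈ U, u ∈ Subgroup.normalizer (H : Set G) → u ∈ H := by
  set C := Subgroup.centralizer ({η} : Set G) with hC
  have hHC : H ≤ C := fun x hx =>
    Subgroup.mem_centralizer_singleton_iff.mpr (h.commute hx hη).eq
  have hcent : ∀ x : G, x ∈ C ↔ Commute η x := fun x => by
    rw [hC, Subgroup.mem_centralizer_singleton_iff]; exact ⟨Eq.symm, Eq.symm⟩
  have hN : ∀ x : C, x ∈ Subgroup.normalizer ((H.subgroupOf C : Subgroup C) : Set C) ↔
      (x : G) ∈ Subgroup.normalizer (H : Set G) := fun x => by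
    rw [← Subgroup.subgroupOf_normalizer_eq hHC, Subgroup.mem_subgroupOf]
  set V := Subgroup.normalClosure ((H.subgroupOf C : Subgroup C) : Set C) with hV
  refine ⟨fun K hF c hcK hcη => ?_, V.map C.subtype, ?_, ?_, ?_⟩
  · set R := ZStar.coreC p (Subgroup.zpowers η)
    have hRle : ∀ r ∈ R, Commute η r := fun r hr =>
      ZStar.mem_centralizer_zpowers_iff.mp (ZStar.coreC_le p _ hr)
    have hRconj : ∀ x, Commute η x → ∀ r ∈ R, x * r * x⁻¹ ∈ R := fun x hx r hr =>
      (Subgroup.mem_normalizer_iff.mp (ZStar.mem_normalizer_coreC p _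
        (Subgroup.centralizer_le_normalizer _ (ZStar.mem_centralizer_zpowers_iff.mpr hx))) r).mp hr
    have h1 : c ∈ (K ⊓ C) ⊓ R := by
      refine mem_of_conj_mem_coset h.isPGroup (L0 := (K ⊓ C) ⊓ R)
        (fun x hx m hm => ⟨⟨hF.conj_mem x hx m hm.1.1, (hcent _).mpr (((h.commute hη hx).mul_right
          ((hcent m).mp hm.1.2)).mul_right (h.commute hη hx).inv_right)⟩,
          hRconj x (h.commute hη hx) m hm.2⟩)
        (fun hd => hF.ndvd (hd.trans (Subgroup.card_dvd_of_le (inf_le_left.trans inf_le_left))))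
        (fun x hx => ?_) (fun d hd hfix => ?_)
      · have hK : c⁻¹ * (x * c * x⁻¹) ∈ K := mul_mem (inv_mem hcK) (hF.conj_mem x hx c hcK)
        have hCm : c⁻¹ * (x * c * x⁻¹) ∈ C := mul_mem (inv_mem ((hcent c).mpr hcη))
          (mul_mem (mul_mem (hHC hx) ((hcent c).mpr hcη)) (inv_mem (hHC hx)))
        refine Subgroup.mem_inf.mpr ⟨Subgroup.mem_inf.mpr ⟨hK, hCm⟩, ?_⟩
        -- `c = n o` in `C`
        obtain ⟨n, hn, o, ho, he⟩ := exists_mul_of_sup hc ⟨c, (hcent c).mpr hcη⟩
        have he' : c = (n : G) * o := congrArg Subtype.val he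
        have hoR : (o : G) ∈ R := by
          have hC' : C = Subgroup.centralizer (Subgroup.zpowers η : Set G) := by
            ext y
            rw [hcent, ZStar.mem_centralizer_zpowers_iff]
          let e : C ≃* Subgroup.centralizer (Subgroup.zpowers η : Set G) :=
            MulEquiv.subgroupCongr hC'
          exact ⟨e o, by rw [← Constrained.pPrimeCore_map e p]; exact ⟨o, ho, rfl⟩, rfl⟩
        set y := (n : G)⁻¹ * x * (n : G)⁻¹⁻¹ with hy
        have hyH : y ∈ H := (Subgroup.mem_normalizer_iff.mp (inv_mem ((hN n).mp hn)) x).mp hx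
        have hyη : Commute η y := h.commute hη hyH
        set r := (o : G)⁻¹ * (y * o * y⁻¹) with hr
        have hrR : r ∈ R := mul_mem (inv_mem hoR) (hRconj y hyη o hoR)
        have e1 : c⁻¹ * (x * c * x⁻¹) = r * (y * x⁻¹) := by
          rw [hr, hy, he']; group
        have hyx : y * x⁻¹ = 1 := by
          refine eq_one_of_mul_regular (p := p) (K := R) (ZStar.not_dvd_card_coreC p _)
            (hRconj _ (hyη.mul_right (h.commute hη hx).inv_right)) hrR
            (exists_orderOf_pow h.isPGroup (mul_mem hyH (inv_mem hx))) fun hd => hF.ndvd ?_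
          rw [← e1] at hd
          exact hd.trans (K.orderOf_dvd_natCard hK)
        rw [e1, hyx, mul_one]
        exact hrR
      · have hdK : d ∈ K := by
          simpa using mul_mem hcK (Subgroup.mem_inf.mp (Subgroup.mem_inf.mp hd).1).1
        exact hF.fixed d hdK hfix
    exact h1.2
  · intro x hx
    exact ⟨⟨x, hHC hx⟩, Subgroup.le_normalClosure (Subgroup.mem_subgroupOf.mpr hx), rfl⟩
  · rintro c hcη _ ⟨v, hv, rfl⟩
    exact ⟨⟨c, (hcent c).mpr hcη⟩ * v * (⟨c, (hcent c).mpr hcη⟩ : C)⁻¹,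
      Subgroup.normalClosure_normal.conj_mem v hv _, rfl⟩
  · rintro _ ⟨v, hv, rfl⟩ huN
    have h2 : v ∈ V ⊓ Subgroup.normalizer ((H.subgroupOf C : Subgroup C) : Set C) :=
      Subgroup.mem_inf.mpr ⟨hv, (hN v).mpr huN⟩
    rw [hV, hc.1] at h2
    exact h2

/-- A central element of `H` reduces to the quotient. -/
theorem normalizer_le_of_central (h : EC p H) (hcl : Subgroup.normalClosure (H : Set G) = ⊤)
    {z : G} (hzH : z ∈ H) (hz1 : z ≠ 1) (hzc : z ∈ Subgroup.center G)
    (ih : ∀ (K : Type u) [Group K] [Finite K] (L : Subgroup K),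
      Nat.card K < Nat.card G → EC p L → Concl p L) :
    Subgroup.normalizer (H : Set G) ≤ H := by
  set Q := Subgroup.zpowers z
  haveI hQn : Q.Normal := ⟨fun x hx g => by
    rw [Subgroup.mem_center_iff.mp (Subgroup.zpowers_le.mpr hzc hx) g, mul_inv_cancel_right]
    exact hx⟩
  have hQH : Q ≤ H := Subgroup.zpowers_le.mpr hzH
  have hlt : Nat.card (G ⧸ Q) < Nat.card G := by
    rw [Q.card_eq_card_quotient_mul_card_subgroup]
    refine lt_mul_of_one_lt_right Nat.card_pos (Subgroup.one_lt_card_iff_ne_bot Q |>.mpr ?_)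
    simpa [Q, Subgroup.zpowers_eq_bot] using hz1
  set f := QuotientGroup.mk' Q with hf
  have hc := ih (G ⧸ Q) (H.map f) hlt (h.map_mk Q hQH)
  have hcl' : Subgroup.normalClosure ((H.map f : Subgroup (G ⧸ Q)) : Set (G ⧸ Q)) = ⊤ := by
    rw [Subgroup.coe_map, ← Subgroup.map_normalClosure _ f (QuotientGroup.mk'_surjective Q), hcl,
      Subgroup.map_top_of_surjective f (QuotientGroup.mk'_surjective Q)]
  have h1 := hc.1
  rw [hcl', top_inf_eq] at h1
  intro n hn
  have h2 : f n ∈ H.map f := by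
    rw [← h1]
    refine mem_normalizer_of_conj_mem' fun y hy => ?_
    obtain ⟨x, hx, rfl⟩ := hy
    exact ⟨n * x * n⁻¹, (Subgroup.mem_normalizer_iff.mp hn x).mp hx, by simp⟩
  obtain ⟨x, hx, he⟩ := h2
  have h3 := mul_mem hx (hQH (QuotientGroup.eq.mp he))
  rwa [mul_inv_cancel_left] at h3

/-- A self-normalizing `H` gives the conclusion. -/
theorem concl_of_self_normalizing (h : EC p H) (hN : Subgroup.normalizer (H : Set G) ≤ H) :
    Concl p H := by
  have hNH : Subgroup.normalizer (H : Set G) = H := le_antisymm hN Subgroup.le_normalizer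
  refine ⟨by rw [hNH]; exact inf_eq_right.mpr Subgroup.le_normalClosure, ?_⟩
  obtain ⟨P, hP⟩ := h.isPGroup.exists_le_sylow
  have hPH : (P : Subgroup G) = H := le_antisymm ((h.le_normalizer P.2 hP).trans hN) hP
  have hburn : Subgroup.normalizer ((P : Subgroup G) : Set G) ≤
      Subgroup.centralizer ((P : Subgroup G) : Set G) := by
    intro g hg
    rw [Subgroup.mem_centralizer_iff]
    intro x hx
    rw [hPH] at hg hx
    exact (h.commute hx (hN hg)).eq
  have hle : (MonoidHom.transferSylow P hburn).ker ≤ pPrimeCore p G :=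
    Constrained.le_pPrimeCore_of_not_dvd inferInstance
      (MonoidHom.not_dvd_card_ker_transferSylow P hburn)
  rw [eq_top_iff, ← (MonoidHom.ker_transferSylow_isComplement' P hburn).sup_eq_top]
  exact sup_le (hle.trans le_sup_right) ((hPH.le.trans Subgroup.le_normalizer).trans le_sup_left)

/-- **Extremely closed abelian `p`-subgroups, `p` odd.** -/
theorem concl (hp2 : p ≠ 2) (h : EC p H) : Concl p H := by
  suffices key : ∀ (N : ℕ) (K : Type u) [Group K] [Finite K] (L : Subgroup K),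
      Nat.card K = N → EC p L → Concl p L from key _ G H rfl h
  intro N
  induction N using Nat.strong_induction_on with
  | _ N ih =>
  intro G _ _ H hN h
  subst hN
  replace ih : ∀ (K : Type u) [Group K] [Finite K] (L : Subgroup K),
      Nat.card K < Nat.card G → EC p L → Concl p L := fun K _ _ L hlt => ih _ hlt K L rfl
  by_cases hcl : Subgroup.normalClosure (H : Set G) = ⊤
  swap
  · exact concl_of_ne_top h hcl ih
  refine concl_of_self_normalizing h ?_
  by_cases hne : H = ⊥
  · intro n _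
    have htop : Subgroup.normalClosure (H : Set G) ≤ ⊥ :=
      Subgroup.normalClosure_le_normal (by rw [hne])
    rw [hcl] at htop
    rw [hne]
    exact htop (Subgroup.mem_top n)
  by_cases hz : ∃ z ∈ H, z ≠ 1 ∧ z ∈ Subgroup.center G
  · obtain ⟨z, hz1, hz2, hz3⟩ := hz
    exact normalizer_le_of_central h hcl hz1 hz2 hz3 ih
  push Not at hz
  have hdata : ∀ η ∈ H, η ≠ 1 → _ := fun η hη hη1 => centralizer_data h hη (ih _ _
    (lt_of_le_of_ne (Subgroup.card_le_card_group _) fun e => hz η hη hη1 (by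
      rw [Subgroup.mem_center_iff]
      intro g
      exact Subgroup.mem_centralizer_singleton_iff.mp
        ((Subgroup.eq_top_of_card_eq _ e).symm ▸ Subgroup.mem_top g)))
    (h.subgroupOf fun x hx => Subgroup.mem_centralizer_singleton_iff.mpr (h.commute hx hη).eq))
  haveI := Fintype.ofFinite G
  obtain ⟨K, hKn, hK, hKH⟩ := exists_normal_complement hp2 h hne hcl
    fun η hη hη1 => (hdata η hη hη1).1
  haveI := hKn
  intro n hn
  obtain ⟨k, hk, x, hx, rfl⟩ := exists_mul_eq K hKH n
  have hkN : k ∈ Subgroup.normalizer (H : Set G) := by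
    simpa using mul_mem hn (inv_mem (Subgroup.le_normalizer hx))
  have hk1 : k = 1 := eq_one_of_commute K hp2 h hne hcl hK hKH
    (fun η hη hη1 => (hdata η hη hη1).2) hk fun y hy => by
      have h1 : k * y * k⁻¹ ∈ H := (Subgroup.mem_normalizer_iff.mp hkN y).mp hy
      refine (mul_inv_eq_iff_eq_mul.mp (eq_one_of_mk_eq K hKH h1 hy ?_)).symm
      rw [QuotientGroup.mk_mul, QuotientGroup.mk_mul, QuotientGroup.mk_inv,
        (QuotientGroup.eq_one_iff k).mpr hk, one_mul, inv_one, mul_one]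
  rw [hk1, one_mul]
  exact hx

end CfsgLib.ExtremelyClosedOdd
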