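import Cfsg.Agent.ExtremelyClosedOdd.Positive

/-!
# Moments of the fixed-point multiplicities over a set of characters

* `moment_bound`: if a set `X` of irreducible characters behaves like a block on `H`, then the
  squared values of `X` on `H` are small.
-/

set_option autoImplicit false
set_option linter.unusedSectionVars false
set_option linter.style.haveILetI false

namespace CfsgLib.ExtremelyClosedOdd

open Cfsg CfsgLib.Chars
open scoped ComplexConjugate

universe u

variable {G : Type u} [Group G]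

/-- A set of characters whose columns behave on `H` like those of a block. -/
structure BlockLike (p : ℕ) (H : Subgroup G) (X : Finset (IrrCharacter G)) : Prop where
  one_mem : oneChar G ∈ X
  orth : ∀ x ∈ H, ∀ y ∈ H, x ≠ 1 → y ≠ 1 → ¬ IsConj x y →
    ∑ χ ∈ X, (χ : G → ℂ) x * conj ((χ : G → ℂ) y) = 0
  regular : ∀ z : G, ¬ p ∣ orderOf z → ∀ w ∈ H, w ≠ 1 →
    ∑ χ ∈ X, (χ : G → ℂ) z * conj ((χ : G → ℂ) w) = 0
  const : ∀ M : Subgroup G, FixFree p H M → ∀ η ∈ H, η ≠ 1 → ∀ c ∈ M, Commute η c →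
    ∀ χ ∈ X, (χ : G → ℂ) (η * c) = (χ : G → ℂ) η

/-- The squared norm of a column over `X`. -/
noncomputable def nsq (X : Finset (IrrCharacter G)) (x : G) : ℝ :=
  ∑ χ ∈ X, ‖(χ : G → ℂ) x‖ ^ 2

section

variable [Fintype G]

open Classical in
/-- The nontrivial elements of `H`. -/
noncomputable def sharp (H : Subgroup G) : Finset G :=
  (Finset.univ.filter (· ∈ H)).erase 1

theorem mem_sharp {H : Subgroup G} {x : G} : x ∈ sharp H ↔ x ∈ H ∧ x ≠ 1 := by
  simp [sharp, and_comm]

open Classical in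
/-- The squared column norms summed over the conjugate pairs of `H`. -/
noncomputable def pairSum (X : Finset (IrrCharacter G)) (H : Subgroup G) : ℝ :=
  ∑ x ∈ sharp H, ∑ y ∈ sharp H, if IsConj x y then nsq X x else 0

theorem card_sharp (H : Subgroup G) : ((sharp H).card : ℝ) = (Nat.card H : ℝ) - 1 := by
  classical
  rw [sharp, Finset.card_erase_of_mem (by simp), ← Fintype.card_subtype, ← Nat.card_eq_fintype_card,
    Nat.cast_sub (Nat.card_pos (α := H)), Nat.cast_one]

theorem sum_sharp_add_one (H : Subgroup G) [Fintype H] {R : Type*} [AddCommMonoid R] (f : G → R) :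
    f 1 + ∑ x ∈ sharp H, f x = ∑ x : H, f x := by
  classical
  rw [sharp, Finset.add_sum_erase _ _ (by simp)]
  exact Finset.sum_subtype _ (fun x => by simp) f

variable {p : ℕ} [hp : Fact p.Prime] {H : Subgroup G} {X : Finset (IrrCharacter G)}

/-- **The moment inequality.** -/
theorem moment_bound (hp2 : p ≠ 2) (hH : IsPGroup p H)
    (hab : ∀ x ∈ H, ∀ y ∈ H, Commute x y)
    (hdec : ∀ g : G, ∃ M : Subgroup G, FixFree p H M ∧
      ∃ m ∈ M, ∃ n ∈ Subgroup.normalizer (H : Set G), g = m * n)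
    (hcl : Subgroup.normalClosure (H : Set G) = ⊤) (hne : H ≠ ⊥) (hX : BlockLike p H X) :
    pairSum X H * ((Nat.card H : ℝ) * ((p : ℝ) - 2) - ((p : ℝ) - 1)) <
      (Nat.card H : ℝ) * ((Nat.card H : ℝ) - 1) *
        ((Nat.card H : ℝ) * ((p : ℝ) - 2) - ((p : ℝ) - 1) + 1) := by
  classical
  haveI := Fintype.ofFinite H
  set S := sharp H with hS
  set h : ℝ := (Nat.card H : ℝ) with hh
  set T := pairSum X H with hT
  set F : G → G → ℂ := fun z w => ∑ χ ∈ X, (χ : G → ℂ) z * conj ((χ : G → ℂ) w) with hF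
  set Φ : G → ℂ := fun η => ∑ w ∈ S, F η w with hΦ
  set E : IrrCharacter G → ℂ := fun χ => ∑ x ∈ S, (χ : G → ℂ) x with hE
  set a : IrrCharacter G → ℝ := fun χ => (E χ).re with ha
  set d : IrrCharacter G → ℝ := fun χ => ((χ : G → ℂ) 1).re with hd
  have hdc : ∀ χ : IrrCharacter G, (χ : G → ℂ) 1 = (d χ : ℂ) := fun χ => by
    simp only [hd]
    rw [← coe_charDegree, Complex.natCast_re, Complex.ofReal_natCast]
  have hd0 : ∀ χ : IrrCharacter G, 0 < d χ := fun χ => by
    simp only [hd]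
    rw [← coe_charDegree, Complex.natCast_re]
    exact_mod_cast charDegree_pos χ
  have hsum1 : ∀ χ : IrrCharacter G, (χ : G → ℂ) 1 + E χ = ∑ x : H, (χ : G → ℂ) x := fun χ =>
    sum_sharp_add_one H _
  have hEc : ∀ χ : IrrCharacter G, E χ = (a χ : ℂ) := by
    intro χ
    have h1 := conj_sum_subgroup (H := H) χ
    rw [← hsum1, map_add, conj_map_one (isCharacter_coe χ), add_right_inj] at h1
    exact (Complex.conj_eq_iff_re.mp h1).symm
  -- second moment
  have hrow : ∀ η ∈ S, Φ η = ((∑ w ∈ S, if IsConj η w then nsq X η else 0 : ℝ) : ℂ) := by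
    intro η hη
    rw [Complex.ofReal_sum]
    refine Finset.sum_congr rfl fun w hw => ?_
    obtain ⟨hηH, hη1⟩ := mem_sharp.mp hη
    obtain ⟨hwH, hw1⟩ := mem_sharp.mp hw
    split_ifs with hc
    · rw [nsq, Complex.ofReal_sum]
      refine Finset.sum_congr rfl fun χ _ => ?_
      rw [← eq_of_isConj (isClassFunction_coe χ) hc, Complex.mul_conj, Complex.normSq_eq_norm_sq]
    · rw [Complex.ofReal_zero]
      exact hX.orth η hηH w hwH hη1 hw1 hc
  have hT' : ∑ η ∈ S, Φ η = (T : ℂ) := by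
    rw [hT, pairSum, Complex.ofReal_sum]
    exact Finset.sum_congr rfl hrow
  have h2 : ∑ χ ∈ X, a χ ^ 2 = T := by
    apply Complex.ofReal_injective
    rw [← hT']
    simp only [hΦ, hF]
    rw [Complex.ofReal_sum, Finset.sum_congr rfl fun η _ => Finset.sum_comm, Finset.sum_comm]
    refine Finset.sum_congr rfl fun χ _ => ?_
    rw [Complex.ofReal_pow, sq]
    nth_rewrite 2 [← Complex.conj_ofReal]
    rw [← hEc, hE, map_sum, Finset.sum_mul_sum]
  -- first moment
  have h1 : ∑ χ ∈ X, d χ * a χ = 0 := by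
    apply Complex.ofReal_injective
    rw [Complex.ofReal_sum, Complex.ofReal_zero]
    calc ∑ χ ∈ X, ((d χ * a χ : ℝ) : ℂ) = ∑ w ∈ S, F 1 w := by
          simp only [hF]
          rw [Finset.sum_comm (s := S)]
          refine Finset.sum_congr rfl fun χ _ => ?_
          rw [Complex.ofReal_mul, ← hdc, ← Finset.mul_sum, ← map_sum, ← Complex.conj_ofReal (a χ),
            ← hEc]
      _ = 0 := Finset.sum_eq_zero fun w hw => hX.regular 1
          (by rw [orderOf_one]; exact hp.out.not_dvd_one) w (mem_sharp.mp hw).1 (mem_sharp.mp hw).2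
  -- third moment
  have hg : ∀ g : G, ∑ x ∈ S, ∑ y ∈ S, ∑ w ∈ S, F (x * (g * y * g⁻¹)) w = ((h - 2 : ℝ) : ℂ) * T := by
    intro g
    obtain ⟨M, hFM, m, hm, n, hn, rfl⟩ := hdec g
    have hstep : ∀ x ∈ S, ∑ y ∈ S, ∑ w ∈ S, F (x * (m * n * y * (m * n)⁻¹)) w = (T : ℂ) - Φ x := by
      intro x hx
      obtain ⟨hxH, hx1⟩ := mem_sharp.mp hx
      have hreidx : ∑ y ∈ S, ∑ w ∈ S, F (x * (m * n * y * (m * n)⁻¹)) w =
          ∑ y ∈ S, ∑ w ∈ S, F (x * (m * y * m⁻¹)) w := by
        have hmem : ∀ {k : G}, k ∈ Subgroup.normalizer (H : Set G) → ∀ y ∈ S, k * y * k⁻¹ ∈ S := by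
          intro k hk y hy
          obtain ⟨hyH, hy1⟩ := mem_sharp.mp hy
          exact mem_sharp.mpr ⟨(Subgroup.mem_normalizer_iff.mp hk y).mp hyH,
            fun e => hy1 (conj_eq_one_iff.mp e)⟩
        refine Finset.sum_nbij' (fun y => n * y * n⁻¹) (fun y => n⁻¹ * y * n⁻¹⁻¹) (hmem hn)
          (hmem (inv_mem hn)) (fun y _ => by simp [mul_assoc]) (fun y _ => by simp [mul_assoc])
          fun y _ => ?_
        refine Finset.sum_congr rfl fun w _ => ?_
        rw [show x * (m * n * y * (m * n)⁻¹) = x * (m * (n * y * n⁻¹) * m⁻¹) by group]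
      have hterm : ∀ y ∈ S, ∑ w ∈ S, F (x * (m * y * m⁻¹)) w = if x * y = 1 then 0 else Φ (x * y) := by
        intro y hy
        obtain ⟨hreg, k, c, hc, hcomm, hz⟩ := hFM.exists_conj hH hxH (mem_sharp.mp hy).1 hm
        split_ifs with he
        · exact Finset.sum_eq_zero fun w hw =>
            hX.regular _ (hreg he) w (mem_sharp.mp hw).1 (mem_sharp.mp hw).2
        · simp only [hΦ, hF]
          refine Finset.sum_congr rfl fun w _ => Finset.sum_congr rfl fun χ hχ => ?_
          rw [hz, isClassFunction_coe χ, hX.const M hFM _ (mul_mem hxH (mem_sharp.mp hy).1) he c hc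
            hcomm χ hχ]
      rw [hreidx, Finset.sum_congr rfl hterm]
      set f : G → ℂ := fun η => if η = 1 then 0 else Φ η with hf
      have hshift : ∑ y : H, f (x * (y : G)) = ∑ y : H, f y :=
        Fintype.sum_equiv (Equiv.mulLeft (⟨x, hxH⟩ : H)) _ _ fun y => rfl
      rw [← sum_sharp_add_one H (fun y => f (x * y)), ← sum_sharp_add_one H f, mul_one,
        ← eq_sub_iff_add_eq'] at hshift
      rw [show ∑ y ∈ S, (if x * y = 1 then 0 else Φ (x * y)) = _ from hshift,
        show f 1 = 0 from if_pos rfl, zero_add, show f x = Φ x from if_neg hx1, ← hT']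
      congr 1
      exact Finset.sum_congr rfl fun y hy => if_neg (mem_sharp.mp hy).2
    rw [Finset.sum_congr rfl hstep, Finset.sum_sub_distrib, Finset.sum_const, nsmul_eq_mul, hT']
    have hc : ((S.card : ℝ) : ℂ) = ((h - 1 : ℝ) : ℂ) := by rw [card_sharp]
    push_cast at hc ⊢
    rw [hc]
    ring
  have h3 : ∑ χ ∈ X, a χ ^ 3 / d χ = (h - 2) * T := by
    apply Complex.ofReal_injective
    have hG0 : (Nat.card G : ℂ) ≠ 0 := Nat.cast_ne_zero.mpr Nat.card_pos.ne'
    refine mul_left_cancel₀ hG0 ?_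
    calc (Nat.card G : ℂ) * ((∑ χ ∈ X, a χ ^ 3 / d χ : ℝ) : ℂ)
        = ∑ g : G, ∑ x ∈ S, ∑ y ∈ S, ∑ w ∈ S, F (x * (g * y * g⁻¹)) w := by
          simp only [hF]
          rw [Complex.ofReal_sum, Finset.mul_sum]
          simp only [Finset.sum_comm (s := S) (t := X), Finset.sum_comm (s := (Finset.univ : Finset G))
            (t := X)]
          refine Finset.sum_congr rfl fun χ _ => ?_
          simp only [Finset.sum_comm (s := (Finset.univ : Finset G)), ← Finset.sum_mul,
            sum_map_mul_conjugate, ← Finset.mul_sum, ← map_sum, mul_div_right_comm, hdc χ,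
            show ∑ x ∈ S, (χ : G → ℂ) x = (a χ : ℂ) from hEc χ, Complex.conj_ofReal]
          rw [Complex.ofReal_div, Complex.ofReal_pow]
          ring
      _ = _ := by
          rw [Finset.sum_congr rfl fun g _ => hg g, Finset.sum_const, Finset.card_univ,
            nsmul_eq_mul, ← Nat.card_eq_fintype_card, Complex.ofReal_mul]
  -- the bound on nontrivial characters
  set c : ℝ := h / ((p : ℝ) - 1) - 1 with hc
  have hp3 : (3 : ℝ) ≤ p := by
    have := hp.out.two_le
    exact_mod_cast show 3 ≤ p by omega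
  have hbound : ∀ χ ∈ X.erase (oneChar G), a χ ≤ c * d χ := by
    intro χ hχ
    have hb := re_sum_le hH hab hdec hcl (Finset.ne_of_mem_erase hχ)
    rw [← hsum1, Complex.add_re] at hb
    rw [hc, sub_mul, one_mul, div_mul_eq_mul_div, le_sub_iff_add_le, le_div_iff₀ (by linarith),
      add_comm]
    exact (mul_comm _ _).trans_le hb
  have hone : a (oneChar G) = h - 1 ∧ d (oneChar G) = 1 := by
    refine ⟨?_, by simp [hd]⟩
    simp only [ha, hE, oneChar_apply, Finset.sum_const, nsmul_eq_mul, mul_one, Complex.natCast_re]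
    exact card_sharp H
  have hhp : (p : ℝ) ≤ h := by
    obtain ⟨k, hk⟩ := hH.exists_card_eq
    have hk0 : k ≠ 0 := fun e => hne (Subgroup.card_eq_one.mp (by rw [hk, e, pow_zero]))
    rw [hh, hk]
    exact_mod_cast Nat.le_of_dvd (pow_pos hp.out.pos k) (dvd_pow_self p hk0)
  have hc0 : 0 < c := by
    rw [hc, sub_pos, one_lt_div (by linarith)]
    linarith
  rw [← Finset.add_sum_erase X _ hX.one_mem] at h1 h2 h3
  simp only [hone.1, hone.2] at h1 h2 h3
  have hnn : ∀ χ ∈ X.erase (oneChar G), 0 ≤ c * a χ ^ 2 - a χ ^ 3 / d χ := by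
    intro χ hχ
    rw [show c * a χ ^ 2 - a χ ^ 3 / d χ = a χ ^ 2 * (c * d χ - a χ) / d χ by
      field_simp [(hd0 χ).ne']]
    exact div_nonneg (mul_nonneg (sq_nonneg _) (sub_nonneg.mpr (hbound χ hχ))) (hd0 χ).le
  have hneg : ∃ χ ∈ X.erase (oneChar G), a χ < 0 := by
    by_contra hall
    push Not at hall
    have := Finset.sum_nonneg fun χ hχ => mul_nonneg (hd0 χ).le (hall χ hχ)
    linarith
  have hpos : 0 < ∑ χ ∈ X.erase (oneChar G), (c * a χ ^ 2 - a χ ^ 3 / d χ) := by
    obtain ⟨χ, hχ, hlt⟩ := hneg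
    refine Finset.sum_pos' hnn ⟨χ, hχ, ?_⟩
    rw [show c * a χ ^ 2 - a χ ^ 3 / d χ = a χ ^ 2 * (c * d χ - a χ) / d χ by
      field_simp [(hd0 χ).ne']]
    exact div_pos (mul_pos (sq_pos_of_ne_zero hlt.ne)
      (sub_pos.mpr (hlt.trans (mul_pos hc0 (hd0 χ))))) (hd0 χ)
  rw [Finset.sum_sub_distrib, ← Finset.mul_sum] at hpos
  set P := ∑ χ ∈ X.erase (oneChar G), a χ ^ 2
  set Q := ∑ χ ∈ X.erase (oneChar G), a χ ^ 3 / d χ
  have hkey : T * (h - 2 - c) < (h - 1) ^ 2 * (h - 1 - c) := by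
    have hP : P = T - (h - 1) ^ 2 := by linarith
    have hQ : Q = (h - 2) * T - (h - 1) ^ 3 := by
      rw [div_one] at h3
      linarith
    rw [hP, hQ] at hpos
    linarith
  have hp1 : (0 : ℝ) < (p : ℝ) - 1 := by linarith
  have hkey' := mul_lt_mul_of_pos_right hkey hp1
  have e1 : T * (h - 2 - c) * ((p : ℝ) - 1) = T * (h * ((p : ℝ) - 2) - ((p : ℝ) - 1)) := by
    rw [hc]; field_simp; ring
  have e2 : (h - 1) ^ 2 * (h - 1 - c) * ((p : ℝ) - 1) =
      h * (h - 1) * (h * ((p : ℝ) - 2) - ((p : ℝ) - 1) + 1) := by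
    rw [hc]; field_simp; ring
  linarith

end

end CfsgLib.ExtremelyClosedOdd
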