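import Cfsg.Agent.ExtremelyClosedOdd.Local
import Cfsg.Agent.Glauberman.Sub
import Cfsg.Agent.Chars.Induced.Clifford
import Cfsg.Agent.Blocks.Orth.Schur
import Cfsg.Agent.Chars.Basic

/-!
# A bound on the fixed-point multiplicity of nontrivial characters

* `re_sum_inv_mul_nonneg`: irreducible characters are positive definite.
* `FixFree.eq_oneChar`: only the trivial character of a fixed-point-free group is invariant.
* `re_sum_le`: if `G` is the normal closure of `H` and every element decomposes, then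
  `(p - 1) ∑_{x ∈ H} χ x ≤ |H| χ 1` for nontrivial irreducible `χ`.
-/

set_option autoImplicit false
set_option linter.unusedSectionVars false
set_option linter.style.haveILetI false

namespace CfsgLib.ExtremelyClosedOdd

open Cfsg CfsgLib.Chars CfsgLib.Chars.Induced
open scoped ComplexConjugate Pointwise CfsgLib.Glauberman

universe u

variable {G : Type u} [Group G]

/-- Irreducible characters are positive definite. -/
theorem re_sum_inv_mul_nonneg [Fintype G] {ι : Type*} [Fintype ι] (ψ : IrrCharacter G)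
    (s : ι → G) : 0 ≤ (∑ i, ∑ j, (ψ : G → ℂ) ((s i)⁻¹ * s j)).re := by
  classical
  set A : G → ℂ := fun u => ∑ j, (ψ : G → ℂ) (u⁻¹ * s j) with hA
  have hA' : ∀ u, conj (A u) = ∑ i, (ψ : G → ℂ) ((s i)⁻¹ * u) := fun u => by
    simp only [hA, map_sum]
    refine Finset.sum_congr rfl fun i _ => ?_
    rw [← map_inv_eq_conj (isCharacter_coe ψ), mul_inv_rev, inv_inv]
  have hkey : ∀ i j, ∑ u, (ψ : G → ℂ) ((s i)⁻¹ * u) * (ψ : G → ℂ) (u⁻¹ * s j) =
      (Nat.card G : ℂ) * (ψ : G → ℂ) ((s i)⁻¹ * s j) / (ψ : G → ℂ) 1 := by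
    intro i j
    have h := Blocks.sum_irrCharacter_convolution ψ ψ ((s i)⁻¹ * s j)
    rw [if_pos rfl] at h
    rw [← h]
    refine Fintype.sum_equiv (Equiv.mulLeft (s i)⁻¹) _ _ fun u => ?_
    simp only [Equiv.coe_mulLeft]
    congr 2
    group
  have htot : ∑ u, conj (A u) * A u =
      (((Nat.card G : ℝ) / (charDegree (ψ : G → ℂ) : ℝ) : ℝ) : ℂ) *
        ∑ i, ∑ j, (ψ : G → ℂ) ((s i)⁻¹ * s j) := by
    have e : ∀ u, conj (A u) * A u = ∑ i, ∑ j,
        (ψ : G → ℂ) ((s i)⁻¹ * u) * (ψ : G → ℂ) (u⁻¹ * s j) := fun u => by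
      rw [hA', hA, Finset.sum_mul_sum]
    simp only [e]
    rw [Finset.sum_comm, Finset.mul_sum]
    refine Finset.sum_congr rfl fun i _ => ?_
    rw [Finset.sum_comm, Finset.mul_sum]
    refine Finset.sum_congr rfl fun j _ => ?_
    rw [hkey]
    push_cast
    rw [coe_charDegree]
    ring
  have h0 : 0 ≤ (∑ u, conj (A u) * A u).re := by
    rw [Complex.re_sum]
    refine Finset.sum_nonneg fun u _ => ?_
    rw [mul_comm, Complex.mul_conj, Complex.ofReal_re]
    exact Complex.normSq_nonneg _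
  rw [htot, Complex.re_ofReal_mul] at h0
  have hc : (0 : ℝ) < (Nat.card G : ℝ) / (charDegree (ψ : G → ℂ) : ℝ) :=
    div_pos (Nat.cast_pos.mpr Nat.card_pos) (Nat.cast_pos.mpr (charDegree_pos ψ))
  exact (mul_nonneg_iff_of_pos_left hc).mp h0

section

variable [Finite G] {p : ℕ} [hp : Fact p.Prime] {H M : Subgroup G}

theorem re_apply_le_degree (χ : IrrCharacter G) (x : G) :
    ((χ : G → ℂ) x).re ≤ ((χ : G → ℂ) 1).re := by
  refine (Complex.re_le_norm _).trans ((norm_apply_le (isCharacter_coe χ) x).trans_eq ?_)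
  rw [← coe_charDegree, Complex.norm_natCast, Complex.natCast_re]

/-- An invariant irreducible character of a fixed-point-free subgroup is trivial. -/
theorem FixFree.eq_oneChar (hH : IsPGroup p H) (hF : FixFree p H M) (θ : IrrCharacter M)
    (hinv : ∀ h ∈ H, ∀ k k' : M, (k' : G) = h * k * h⁻¹ → (θ : M → ℂ) k' = (θ : M → ℂ) k) :
    θ = oneChar M := by
  letI := Glauberman.conjSubAction M H hF.conj_mem
  have hfix : ∀ k : M, k ∈ MulAction.fixedPoints H M ↔
      ∃ c : (⊥ : Subgroup M), (⊥ : Subgroup M).subtype c = k := by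
    intro k
    rw [Glauberman.fixed_iff_mem hF.conj_mem]
    refine ⟨fun hk => ⟨1, ?_⟩, ?_⟩
    · refine Subtype.ext ?_
      rw [map_one, OneMemClass.coe_one]
      exact (hF.fixed k k.2 fun h hh =>
        Subgroup.mem_centralizer_iff.mp (Subgroup.mem_inf.mp hk).2 h hh).symm
    · rintro ⟨c, rfl⟩
      rw [Subgroup.mem_bot.mp c.2 |> (fun e => show (⊥ : Subgroup M).subtype c = 1 from e)]
      exact one_mem _
  let e := Glauberman.glaubermanEquiv (p := p) hH hF.ndvd (⊥ : Subgroup M).subtype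
    Subtype.val_injective hfix
  have hsub : Subsingleton (IrrCharacter (⊥ : Subgroup M)) := by
    refine ⟨fun a b => ?_⟩
    refine Subtype.ext (funext fun c => ?_)
    rw [Subsingleton.elim c 1]
    haveI : IsMulCommutative (⊥ : Subgroup M) :=
      ⟨⟨fun x y => Subsingleton.elim _ _⟩⟩
    rw [map_one_eq_one_of_isMulCommutative a, map_one_eq_one_of_isMulCommutative b]
  have h1 : oneChar M ∈ MulAction.fixedPoints H (IrrCharacter M) :=
    (Glauberman.invariant_iff hF.conj_mem _).mp fun _ _ _ _ _ => by simp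
  exact congrArg Subtype.val (e.injective
    (Subsingleton.elim (e ⟨θ, (Glauberman.invariant_iff hF.conj_mem θ).mp hinv⟩) (e ⟨_, h1⟩)))

/-- If the trivial character of a normal subgroup is a constituent, the subgroup is in the
kernel. -/
theorem le_charKer_of_mult_one [Fintype G] (N : Subgroup G) [N.Normal] [Fintype N]
    (χ : IrrCharacter G) (h : mult (fun n : N => (χ : G → ℂ) n) (oneChar N) ≠ 0) :
    N ≤ charKer (χ : G → ℂ) := by
  rw [le_charKer_iff (isCharacter_coe χ)]
  intro x hx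
  have h1 := congrFun (clifford χ (oneChar N) h) ⟨x, hx⟩
  have h2 := congrFun (clifford χ (oneChar N) h) 1
  simp only [Pi.smul_apply, Finset.sum_apply, OneMemClass.coe_one] at h1 h2
  rw [h1, h2]
  congr 1
  refine Finset.sum_congr rfl fun η hη => ?_
  obtain ⟨y, rfl⟩ := (Set.Finite.mem_toFinset _).1 hη
  simp [conjIrr_coe, conjFun_apply]

/-- The estimate for one constituent. -/
theorem irr_bound [Fintype G] [Fintype H] [M.Normal] (hsup : M ⊔ H = ⊤)
    (hH : IsPGroup p H) (hab : ∀ x ∈ H, ∀ y ∈ H, Commute x y) (hF : FixFree p H M)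
    (ψ : IrrCharacter G) {m : G} (hm : m ∈ M) :
    (Nat.card H : ℝ) *
        ((p : ℝ) * (∑ x : H, (ψ : G → ℂ) x).re - (Nat.card H : ℝ) * ((ψ : G → ℂ) 1).re) ≤
      ((p : ℝ) - 1) * (∑ x : H, ∑ y : H, (ψ : G → ℂ) ((x : G) * (m * y * m⁻¹))).re := by
  classical
  have hcardH : (0 : ℝ) < Nat.card H := Nat.cast_pos.mpr Nat.card_pos
  have hp1 : (0 : ℝ) ≤ (p : ℝ) - 1 := sub_nonneg.mpr (by exact_mod_cast hp.out.one_le)
  have hA : (∑ x : H, (ψ : G → ℂ) x).re ≤ (Nat.card H : ℝ) * ((ψ : G → ℂ) 1).re := by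
    rw [Complex.re_sum]
    refine (Finset.sum_le_sum (g := fun _ : H => ((ψ : G → ℂ) 1).re)
      fun x _ => re_apply_le_degree ψ (x : G)).trans_eq ?_
    rw [Finset.sum_const, Finset.card_univ, nsmul_eq_mul, Nat.card_eq_fintype_card]
  by_cases hker : M ≤ charKer (ψ : G → ℂ)
  · -- `M` in the kernel
    have hval : ∀ x y : H, (ψ : G → ℂ) ((x : G) * (m * y * m⁻¹)) = (ψ : G → ℂ) ((x * y : H) : G) := by
      intro x y
      have hk : m * ((y : G) * m⁻¹ * (y : G)⁻¹) ∈ M :=
        mul_mem hm (hF.conj_mem _ y.2 _ (inv_mem hm))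
      rw [show (x : G) * (m * y * m⁻¹) = (x : G) * ((m * ((y : G) * m⁻¹ * (y : G)⁻¹)) * y) by group,
        classFunction_mul_comm (isClassFunction_coe ψ), mul_assoc,
        map_mul_of_mem_charKer (hker hk), classFunction_mul_comm (isClassFunction_coe ψ)]
      rfl
    have hS : ∑ x : H, ∑ y : H, (ψ : G → ℂ) ((x : G) * (m * y * m⁻¹)) =
        ((Nat.card H : ℝ) : ℂ) * ∑ x : H, (ψ : G → ℂ) x := by
      have : ∀ x : H, ∑ y : H, (ψ : G → ℂ) ((x : G) * (m * y * m⁻¹)) = ∑ y : H, (ψ : G → ℂ) y :=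
        fun x => Fintype.sum_equiv (Equiv.mulLeft x) _ _ fun y => hval x y
      simp only [this, Finset.sum_const, Finset.card_univ, nsmul_eq_mul, Complex.ofReal_natCast,
        Nat.card_eq_fintype_card]
    rw [hS, Complex.re_ofReal_mul]
    nlinarith [mul_le_mul_of_nonneg_left hA hcardH.le]
  · -- `M` not in the kernel: the left side is negative
    haveI := Fintype.ofFinite M
    obtain ⟨θ, hθ⟩ := exists_mult_ne_zero (isCharacter_restrict (isCharacter_coe ψ) M)
      (fun h0 => map_one_ne_zero ψ (congrFun h0 1))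
    set T := inertia M (θ : M → ℂ) with hT
    have hMT : M ≤ T := le_inertia (isClassFunction_coe θ)
    have hHT : ¬ H ≤ T := fun hle => hker (le_charKer_of_mult_one M ψ (by
      have e : θ = oneChar M := hF.eq_oneChar hH θ fun x hx k k' hk =>
        mem_inertia_iff_forall.mp (hle hx) k k' hk
      rwa [e] at hθ))
    haveI := Fintype.ofFinite T
    obtain ⟨φ, -, hφ⟩ := exists_indFun_eq hT hMT ψ hθ
    have hvan : ∀ x ∈ H, x ∉ T → (ψ : G → ℂ) x = 0 := by
      intro x hx hxT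
      rw [← hφ]
      refine indFun_eq_zero_of_forall _ fun g hg => hxT ?_
      obtain ⟨k, hk, y, hy, he⟩ : g⁻¹ ∈ (M : Set G) * (H : Set G) := by
        rw [← Subgroup.normal_mul, hsup]; exact Set.mem_univ _
      have hginv : g = (k * y)⁻¹ := by rw [show k * y = g⁻¹ from he, inv_inv]
      rw [hginv, inv_inv, show k * y * x * (k * y)⁻¹ = k * (y * x * y⁻¹) * k⁻¹ by group,
        mul_inv_eq_iff_eq_mul.mpr (hab y hy x hx).eq] at hg
      simpa [mul_assoc] using mul_mem (mul_mem (inv_mem (hMT hk)) hg) (hMT hk)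
    set H0 := T.subgroupOf H with hH0
    have hH0top : H0 ≠ ⊤ := fun he => hHT (Subgroup.subgroupOf_eq_top.mp he)
    have hdvd : p ∣ H0.index := by
      obtain ⟨n, hn⟩ := hH.index H0
      rcases Nat.eq_zero_or_pos n with rfl | hn0
      · exact absurd (Subgroup.index_eq_one.mp (by simpa using hn)) hH0top
      · exact hn ▸ dvd_pow_self p hn0.ne'
    have hcard : (p : ℝ) * Nat.card H0 ≤ Nat.card H := by
      rw [← H0.card_mul_index, mul_comm (p : ℝ)]
      push_cast
      refine mul_le_mul_of_nonneg_left (Nat.cast_le.mpr (Nat.le_of_dvd ?_ hdvd)) (Nat.cast_nonneg _)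
      exact Nat.pos_of_ne_zero Subgroup.index_ne_zero_of_finite
    have hd0 : 0 ≤ ((ψ : G → ℂ) 1).re := by rw [← coe_charDegree, Complex.natCast_re]; positivity
    have hA0 : (∑ x : H, (ψ : G → ℂ) x).re ≤ (Nat.card H0 : ℝ) * ((ψ : G → ℂ) 1).re := by
      haveI := Fintype.ofFinite H0
      rw [Complex.re_sum, ← Finset.sum_filter_of_ne (p := (· ∈ H0)) (fun x _ hne => ?_),
        Finset.sum_subtype _ (p := (· ∈ H0)) (fun x => by simp)
          (fun x : H => ((ψ : G → ℂ) x).re)]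
      · refine (Finset.sum_le_sum (g := fun _ => ((ψ : G → ℂ) 1).re) fun x _ => re_apply_le_degree ψ _).trans_eq ?_
        rw [Finset.sum_const, Finset.card_univ, nsmul_eq_mul, Nat.card_eq_fintype_card]
      · by_contra hx
        exact hne (by rw [hvan x x.2 hx]; rfl)
    have hS : 0 ≤ (∑ x : H, ∑ y : H, (ψ : G → ℂ) ((x : G) * (m * y * m⁻¹))).re := by
      have h := re_sum_inv_mul_nonneg ψ (fun i : H × H => (i.1 : G) * (m * i.2 * m⁻¹))
      have hrew : ∀ x x' y y' : H, (ψ : G → ℂ) (((x : G) * (m * y * m⁻¹))⁻¹ * ((x' : G) * (m * y' * m⁻¹))) =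
          (ψ : G → ℂ) (((x⁻¹ * x' : H) : G) * (m * ((y' * y⁻¹ : H) : G) * m⁻¹)) := by
        intro x x' y y'
        rw [show ((x : G) * (m * y * m⁻¹))⁻¹ * ((x' : G) * (m * y' * m⁻¹)) =
          (m * (y : G)⁻¹ * m⁻¹) * ((x : G)⁻¹ * x' * (m * y' * m⁻¹)) by group,
          classFunction_mul_comm (isClassFunction_coe ψ)]
        congr 1
        push_cast
        group
      simp only [Fintype.sum_prod_type, hrew] at h
      have e1 : ∀ x y : H, ∑ x' : H, ∑ y' : H,
          (ψ : G → ℂ) (((x⁻¹ * x' : H) : G) * (m * ((y' * y⁻¹ : H) : G) * m⁻¹)) =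
          ∑ a : H, ∑ b : H, (ψ : G → ℂ) ((a : G) * (m * b * m⁻¹)) := fun x y =>
        Fintype.sum_equiv (Equiv.mulLeft x⁻¹) _ _ fun x' =>
          Fintype.sum_equiv (Equiv.mulRight y⁻¹) _ _ fun y' => rfl
      simp only [e1, Finset.sum_const, smul_smul, nsmul_eq_mul, Finset.card_univ,
        ← Complex.ofReal_natCast, Complex.re_ofReal_mul, ← Nat.card_eq_fintype_card] at h
      exact (mul_nonneg_iff_of_pos_left hcardH).mp ((mul_nonneg_iff_of_pos_left hcardH).mp h)
    refine le_trans ?_ (mul_nonneg hp1 hS)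
    refine mul_nonpos_of_nonneg_of_nonpos hcardH.le (sub_nonpos.mpr ?_)
    calc (p : ℝ) * (∑ x : H, (ψ : G → ℂ) x).re
        ≤ (p : ℝ) * ((Nat.card H0 : ℝ) * ((ψ : G → ℂ) 1).re) :=
          mul_le_mul_of_nonneg_left hA0 (Nat.cast_nonneg p)
      _ ≤ _ := by rw [← mul_assoc]; exact mul_le_mul_of_nonneg_right hcard hd0

/-- The sum over `H` is real. -/
theorem conj_sum_subgroup [Fintype H] (χ : IrrCharacter G) :
    conj (∑ x : H, (χ : G → ℂ) x) = ∑ x : H, (χ : G → ℂ) x := by
  rw [map_sum]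
  exact Fintype.sum_equiv (Equiv.inv H) _ _ fun x =>
    (map_inv_eq_conj (isCharacter_coe χ) (x : G)).symm

/-- The estimate at one decomposed element. -/
theorem coset_bound [Fintype H] (hH : IsPGroup p H) (hab : ∀ x ∈ H, ∀ y ∈ H, Commute x y)
    (hF : FixFree p H M) (χ : IrrCharacter G) {m : G} (hm : m ∈ M) :
    (Nat.card H : ℝ) *
        ((p : ℝ) * (∑ x : H, (χ : G → ℂ) x).re - (Nat.card H : ℝ) * ((χ : G → ℂ) 1).re) ≤
      ((p : ℝ) - 1) * (∑ x : H, ∑ y : H, (χ : G → ℂ) ((x : G) * (m * y * m⁻¹))).re := by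
  classical
  set Y := M ⊔ H with hY
  haveI := Fintype.ofFinite Y
  have hMY : M ≤ Y := le_sup_left
  have hHY : H ≤ Y := le_sup_right
  haveI : (M.subgroupOf Y).Normal := (Subgroup.normal_subgroupOf_iff_le_normalizer hMY).mpr
    (sup_le Subgroup.le_normalizer fun x hx =>
      mem_normalizer_of_conj_mem' fun k hk => hF.conj_mem x hx k hk)
  haveI := Fintype.ofFinite (H.subgroupOf Y)
  have hH' : IsPGroup p (H.subgroupOf Y) :=
    hH.of_equiv (Subgroup.subgroupOfEquivOfLe hHY).symm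
  have hF' : FixFree p (H.subgroupOf Y) (M.subgroupOf Y) := by
    refine ⟨fun x hx k hk => hF.conj_mem _ hx _ hk, ?_, fun k hk hc => ?_⟩
    · rw [Nat.card_congr (Subgroup.subgroupOfEquivOfLe hMY).toEquiv]; exact hF.ndvd
    · exact Subtype.ext (hF.fixed _ hk fun x hx =>
        congrArg Subtype.val (hc ⟨x, hHY hx⟩ hx).eq)
  have hsup : M.subgroupOf Y ⊔ H.subgroupOf Y = ⊤ := by
    rw [← Subgroup.subgroupOf_sup hMY hHY, ← hY, Subgroup.subgroupOf_self]
  obtain ⟨s, -, hs⟩ := exists_eq_sum_mult (isCharacter_restrict (isCharacter_coe χ) Y)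
  have hval : ∀ (g : G) (hg : g ∈ Y), (χ : G → ℂ) g =
      ∑ η ∈ s, (mult (fun y : Y => (χ : G → ℂ) y) η : ℂ) * (η : Y → ℂ) ⟨g, hg⟩ := fun g hg => by
    have h := congrFun hs ⟨g, hg⟩
    simpa [Finset.sum_apply] using h
  let e : H.subgroupOf Y ≃* H := Subgroup.subgroupOfEquivOfLe hHY
  set c : IrrCharacter Y → ℕ := fun η => mult (fun y : Y => (χ : G → ℂ) y) η
  have h1 : ∑ x : H, (χ : G → ℂ) x = ∑ η ∈ s, (c η : ℂ) *
      ∑ x : H.subgroupOf Y, (η : Y → ℂ) x := by
    rw [Finset.sum_congr rfl fun η (_ : η ∈ s) => Finset.mul_sum _ _ _, Finset.sum_comm]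
    exact (Fintype.sum_equiv e.toEquiv _ _ fun x => (hval _ (x : Y).2).symm).symm
  let m' : Y := ⟨m, hMY hm⟩
  have h2 : ∑ x : H, ∑ y : H, (χ : G → ℂ) ((x : G) * (m * y * m⁻¹)) =
      ∑ η ∈ s, (c η : ℂ) * ∑ x : H.subgroupOf Y,
        ∑ y : H.subgroupOf Y, (η : Y → ℂ) ((x : Y) * (m' * y * m'⁻¹)) := by
    simp only [Finset.mul_sum]
    conv_rhs => rw [Finset.sum_comm]
    symm
    refine Fintype.sum_equiv e.toEquiv _ _ fun x => ?_
    rw [Finset.sum_comm]
    exact Fintype.sum_equiv e.toEquiv _ _ fun y =>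
      (hval _ ((x : Y) * (m' * y * m'⁻¹)).2).symm
  have h3 : (χ : G → ℂ) 1 = ∑ η ∈ s, (c η : ℂ) * (η : Y → ℂ) 1 := hval 1 (one_mem Y)
  have hre : ∀ F : IrrCharacter Y → ℂ,
      (∑ η ∈ s, (c η : ℂ) * F η).re = ∑ η ∈ s, (c η : ℝ) * (F η).re := fun F => by
    rw [Complex.re_sum]
    exact Finset.sum_congr rfl fun η _ => by
      rw [← Complex.ofReal_natCast, Complex.re_ofReal_mul]
  rw [h1, h2, h3, hre, hre, hre, Finset.mul_sum, Finset.mul_sum, ← Finset.sum_sub_distrib,
    Finset.mul_sum, Finset.mul_sum]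
  refine Finset.sum_le_sum fun η _ => ?_
  have hb := irr_bound hsup hH' (fun x hx y hy => Subtype.ext (hab _ hx _ hy)) hF' η
    (m := m') hm
  rw [Nat.card_congr e.toEquiv] at hb
  have := mul_le_mul_of_nonneg_left hb (Nat.cast_nonneg (c η) : (0 : ℝ) ≤ _)
  linarith

/-- **Nontrivial irreducible characters have few fixed points on `H`.** -/
theorem re_sum_le [Fintype H] (hH : IsPGroup p H) (hab : ∀ x ∈ H, ∀ y ∈ H, Commute x y)
    (hdec : ∀ g : G, ∃ M : Subgroup G, FixFree p H M ∧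
      ∃ m ∈ M, ∃ n ∈ Subgroup.normalizer (H : Set G), g = m * n)
    (hcl : Subgroup.normalClosure (H : Set G) = ⊤) {χ : IrrCharacter G} (hχ : χ ≠ oneChar G) :
    ((p : ℝ) - 1) * (∑ x : H, (χ : G → ℂ) x).re ≤ (Nat.card H : ℝ) * ((χ : G → ℂ) 1).re := by
  classical
  haveI := Fintype.ofFinite G
  set h : ℝ := (Nat.card H : ℝ)
  set A : ℝ := (∑ x : H, (χ : G → ℂ) x).re with hAdef
  set d : ℝ := ((χ : G → ℂ) 1).re with hddef
  have hAc : ∑ x : H, (χ : G → ℂ) x = (A : ℂ) :=
    (Complex.conj_eq_iff_re.mp (conj_sum_subgroup χ)).symm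
  have hdc : (χ : G → ℂ) 1 = (d : ℂ) := by
    rw [hddef, ← coe_charDegree, Complex.natCast_re, Complex.ofReal_natCast]
  have hd : 0 < d := by
    rw [hddef, ← coe_charDegree, Complex.natCast_re]; exact_mod_cast charDegree_pos χ
  -- each element
  have hg : ∀ g : G, h * ((p : ℝ) * A - h * d) ≤
      ((p : ℝ) - 1) * (∑ x : H, ∑ y : H, (χ : G → ℂ) ((x : G) * (g * y * g⁻¹))).re := by
    intro g
    obtain ⟨M, hF, m, hm, n, hn, rfl⟩ := hdec g
    refine (coset_bound hH hab hF χ hm).trans_eq ?_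
    refine congrArg (fun t : ℂ => ((p : ℝ) - 1) * t.re) (Finset.sum_congr rfl fun x _ => ?_)
    refine (Fintype.sum_equiv
      (⟨fun y => ⟨n * y * n⁻¹, (Subgroup.mem_normalizer_iff.mp hn _).mp y.2⟩,
        fun y => ⟨n⁻¹ * y * n⁻¹⁻¹, (Subgroup.mem_normalizer_iff.mp (inv_mem hn) _).mp y.2⟩,
        fun y => Subtype.ext (by simp [mul_assoc]), fun y => Subtype.ext (by simp [mul_assoc])⟩ :
        H ≃ H) _ _ fun y => ?_).symm
    congr 1
    simp [mul_assoc]
  have htot : ∑ g : G, (∑ x : H, ∑ y : H, (χ : G → ℂ) ((x : G) * (g * y * g⁻¹))).re =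
      (Nat.card G : ℝ) * A ^ 2 / d := by
    rw [← Complex.re_sum, Finset.sum_comm]
    simp only [Finset.sum_comm (s := (Finset.univ : Finset G)), sum_map_mul_conjugate,
      ← Finset.sum_div, ← Finset.mul_sum, ← Finset.sum_mul, hAc, hdc]
    rw [← Complex.ofReal_natCast, ← Complex.ofReal_mul, ← Complex.ofReal_mul, ← Complex.ofReal_div,
      Complex.ofReal_re, sq]
  have hsum := Finset.sum_le_sum (s := (Finset.univ : Finset G)) fun g _ => hg g
  rw [Finset.sum_const, Finset.card_univ, nsmul_eq_mul, ← Finset.mul_sum, htot,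
    ← Nat.card_eq_fintype_card] at hsum
  have hGpos : (0 : ℝ) < Nat.card G := Nat.cast_pos.mpr Nat.card_pos
  have hquad : 0 ≤ (((p : ℝ) - 1) * A - h * d) * (A - h * d) := by
    rw [mul_div_assoc', le_div_iff₀ hd] at hsum
    refine (mul_nonneg_iff_of_pos_left hGpos).mp ?_
    linarith
  have hAle : A ≤ h * d := by
    rw [hAdef, Complex.re_sum]
    refine (Finset.sum_le_sum (g := fun _ : H => d) fun x _ => re_apply_le_degree χ (x : G)).trans_eq ?_
    rw [Finset.sum_const, Finset.card_univ, nsmul_eq_mul, ← Nat.card_eq_fintype_card]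
  rcases hAle.lt_or_eq with hlt | heq
  · by_contra hne
    push Not at hne
    have := mul_neg_of_pos_of_neg (sub_pos.mpr hne) (sub_neg.mpr hlt)
    linarith
  · -- `H` lies in the kernel
    exfalso
    have hall : ∀ x : H, ((χ : G → ℂ) x).re = d := by
      have he : ∑ x : H, ((χ : G → ℂ) x).re = ∑ _x : H, d := by
        rw [← Complex.re_sum, Finset.sum_const, Finset.card_univ, nsmul_eq_mul,
          ← Nat.card_eq_fintype_card]
        exact heq
      exact fun x => (Finset.sum_eq_sum_iff_of_le (f := fun x : H => ((χ : G → ℂ) x).re)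
        (g := fun _ => d) fun x _ => re_apply_le_degree χ (x : G)).mp he x (Finset.mem_univ x)
    have hker : ∀ x ∈ H, x ∈ charKer (χ : G → ℂ) := fun x hx => by
      rw [mem_charKer_iff (isCharacter_coe χ), hdc]
      refine Complex.ext (hall ⟨x, hx⟩) ?_
      rw [Complex.ofReal_im]
      have h1 : Complex.normSq ((χ : G → ℂ) x) ≤ d * d := by
        rw [Complex.normSq_eq_norm_sq, sq]
        have h2 : ‖(χ : G → ℂ) x‖ ≤ d := by
          refine (norm_apply_le (isCharacter_coe χ) x).trans_eq ?_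
          rw [hdc, Complex.norm_real, Real.norm_of_nonneg hd.le]
        exact mul_self_le_mul_self (norm_nonneg _) h2
      rw [Complex.normSq_apply, hall ⟨x, hx⟩] at h1
      exact mul_self_eq_zero.mp (le_antisymm (by linarith) (mul_self_nonneg _))
    haveI := charKer_normal (isClassFunction_coe χ)
    have htop : ∀ g : G, (χ : G → ℂ) g = (χ : G → ℂ) 1 := fun g =>
      map_eq_map_one_of_mem_charKer (Subgroup.normalClosure_le_normal hker (hcl ▸ Subgroup.mem_top g))
    have h0 := classInner_of_ne hχ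
    rw [Cfsg.classInner] at h0
    simp only [htop, oneChar_apply, map_one, mul_one, Finset.sum_const, Finset.card_univ,
      nsmul_eq_mul, mul_eq_zero, inv_eq_zero, Nat.cast_eq_zero, map_one_ne_zero χ, or_false] at h0
    rcases h0 with h0 | h0
    · exact Nat.card_pos.ne' h0
    · exact Fintype.card_pos.ne' h0

end

end CfsgLib.ExtremelyClosedOdd
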