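import Cfsg.Agent.ExtremelyClosedOdd.Average
import Cfsg.Agent.Blocks.Orth.Blocks
import Cfsg.Agent.Blocks.Basic.Principal
import Cfsg.Agent.ZStar.SecondMain
import Cfsg.Agent.Transfer.NormalPComplement

/-!
# The principal block moment argument

* `exists_normal_complement`: an extremely closed abelian `p`-subgroup generating `G` normally, with
  `C_M(η) ≤ O_{p'}(C(η))`, is a Sylow subgroup with a normal complement.
-/

set_option autoImplicit false
set_option linter.unusedSectionVars false
set_option linter.style.haveILetI false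

namespace CfsgLib.ExtremelyClosedOdd

open Cfsg CfsgLib.Chars CfsgLib.Blocks
open scoped ComplexConjugate

universe u

variable {G : Type u} [Group G] [Fintype G]

/-- A function constant on left cosets sums to a multiple of the subgroup order. -/
theorem sum_eq_card_mul_sum_out (C : Subgroup G) [Fintype (G ⧸ C)] (f : G → ℂ)
    (hf : ∀ a, ∀ c ∈ C, f (a * c) = f a) :
    ∑ a : G, f a = (Nat.card C : ℂ) * ∑ q : G ⧸ C, f q.out := by
  classical
  haveI := Fintype.ofFinite C
  let e : (G ⧸ C) × C ≃ G :=
    { toFun := fun x => x.1.out * x.2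
      invFun := fun a => (a, ⟨(QuotientGroup.mk a : G ⧸ C).out⁻¹ * a,
        QuotientGroup.eq.mp (Quotient.out_eq (QuotientGroup.mk a : G ⧸ C))⟩)
      left_inv := fun x => by
        have h : (QuotientGroup.mk (x.1.out * x.2) : G ⧸ C) = x.1 := by
          rw [QuotientGroup.mk_mul_of_mem _ x.2.2]; exact Quotient.out_eq x.1
        exact Prod.ext h (Subtype.ext (by simp [h]))
      right_inv := fun a => by simp }
  rw [← Equiv.sum_comp e f, Fintype.sum_prod_type, Finset.mul_sum]
  refine Finset.sum_congr rfl fun q _ => ?_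
  rw [Finset.sum_congr rfl fun c _ => show f (e (q, c)) = f q.out from hf _ _ c.2, Finset.sum_const,
    nsmul_eq_mul, Finset.card_univ, Nat.card_eq_fintype_card]

variable {p : ℕ} [hp : Fact p.Prime] {M : Ideal AlgInt} {H : Subgroup G}

/-- Block column norms are divisible by the centralizer order. -/
theorem exists_nsq_block_eq (hM : IsPModular p M) {B : Set (IrrCharacter G)} (hB : IsPBlock M B)
    (η : G) {k : ℕ} (hk : p ^ k ∣ Nat.card (Subgroup.centralizer ({η} : Set G))) :
    ∃ w : ℂ, MemLocalRing M w ∧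
      ((nsq B.toFinite.toFinset η : ℝ) : ℂ) = (p : ℂ) ^ k * w := by
  classical
  have := isMaximal_of_isPModular hM
  set S := B.toFinite.toFinset
  set C := Subgroup.centralizer ({η} : Set G)
  haveI := Fintype.ofFinite (G ⧸ C)
  obtain ⟨m, hm⟩ := hk
  refine ⟨(m : ℂ) * ∑ q : G ⧸ C, idemCoeff S (q.out * η⁻¹ * q.out⁻¹ * η),
    (localRing M).mul_mem (natCast_mem _ m)
      ((localRing M).sum_mem fun q _ => isIntegralSet_block hM hB _), ?_⟩
  have h1 : ((nsq S η : ℝ) : ℂ) = ∑ a : G, idemCoeff S (a * η⁻¹ * a⁻¹ * η) := by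
    rw [sum_idemCoeff_conj_mul, nsq, Complex.ofReal_sum]
    refine Finset.sum_congr rfl fun χ _ => ?_
    rw [inv_inv, map_inv_eq_conj (isCharacter_coe χ), Complex.mul_conj, Complex.normSq_eq_norm_sq]
  rw [h1, sum_eq_card_mul_sum_out C _ fun a c hc => ?_, hm]
  · push_cast; ring
  · congr 1
    have hcomm : Commute c η := Subgroup.mem_centralizer_singleton_iff.mp hc
    calc a * c * η⁻¹ * (a * c)⁻¹ * η = a * (c * η⁻¹ * c⁻¹) * a⁻¹ * η := by group
      _ = _ := by rw [hcomm.inv_right.eq, mul_inv_cancel_right]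

/-- A `p`-element is its own `p`-part. -/
theorem isPPart_self (hH : IsPGroup p H) {x : G} (hx : x ∈ H) : IsPPart p x x :=
  ⟨1, mul_one x, Commute.one_right x, exists_orderOf_pow hH hx,
    by rw [orderOf_one]; exact hp.out.not_dvd_one⟩

/-- The principal block is block-like on `H`. -/
theorem blockLike_principal (hM : IsPModular p M) (hH : IsPGroup p H)
    (hR : ∀ η ∈ H, η ≠ 1 → ∀ K : Subgroup G, FixFree p H K → ∀ c ∈ K, Commute η c →
      c ∈ ZStar.coreC p (Subgroup.zpowers η)) :
    BlockLike p H (principalBlock M G).toFinite.toFinset := by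
  have := isMaximal_of_isPModular hM
  have hB := isPBlock_principalBlock (M := M) (G := G)
  refine ⟨(Set.Finite.mem_toFinset _).mpr oneChar_mem_principalBlock, ?_, ?_, ?_⟩
  · intro x hx y hy _ _ hxy
    rw [← finsum_block_eq_sum]
    exact finsum_block_mul_conj_eq_zero_of_pPart hM hB (isPPart_self hH hx) (isPPart_self hH hy)
      fun hc => hxy hc.symm
  · intro z hz w hw hw1
    rw [← finsum_block_eq_sum]
    refine finsum_block_regular_mul_conj_singular hM hB hz ?_
    by_contra hd
    exact hw1 (eq_one_of_orderOf (exists_orderOf_pow hH hw) hd)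
  · intro K hK η hη hη1 c hc hcomm χ hχ
    exact ZStar.apply_mul_eq_apply hM (exists_orderOf_pow hH hη) (hR η hη hη1 K hK c hc hcomm)
      ((Set.Finite.mem_toFinset _).mp hχ)

open Classical in
/-- **`H` is a Sylow subgroup with a normal `p`-complement.** -/
theorem exists_normal_complement (hp2 : p ≠ 2) (h : EC p H) (hne : H ≠ ⊥)
    (hcl : Subgroup.normalClosure (H : Set G) = ⊤)
    (hR : ∀ η ∈ H, η ≠ 1 → ∀ K : Subgroup G, FixFree p H K → ∀ c ∈ K, Commute η c →
      c ∈ ZStar.coreC p (Subgroup.zpowers η)) :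
    ∃ K : Subgroup G, K.Normal ∧ ¬ p ∣ Nat.card K ∧ K.IsComplement' H := by
  obtain ⟨M, hM⟩ := exists_isPModular p hp.out
  have := isMaximal_of_isPModular hM
  have hab : ∀ x ∈ H, ∀ y ∈ H, Commute x y := fun x hx y hy => h.commute hx hy
  set X := (principalBlock M G).toFinite.toFinset
  have hX : BlockLike p H X := blockLike_principal hM h.isPGroup hR
  have hmom := moment_bound hp2 h.isPGroup hab h.exists_decomp hcl hne hX
  obtain ⟨n, hn⟩ := h.isPGroup.exists_card_eq
  have hn0 : n ≠ 0 := fun e => hne (Subgroup.card_eq_one.mp (by rw [hn, e, pow_zero]))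
  have hN1 : 1 < p ^ n := Nat.one_lt_pow hn0 hp.out.one_lt
  have hpow : ∀ x ∈ H, x ^ p ^ n = 1 := fun x hx =>
    orderOf_dvd_iff_pow_eq_one.mp (hn ▸ Subgroup.orderOf_dvd_natCard H hx)
  -- a lower bound from any common divisor of the centralizer orders
  have hlow : ∀ k : ℕ, (∀ η ∈ H, p ^ k ∣ Nat.card (Subgroup.centralizer ({η} : Set G))) →
      (p : ℝ) ^ k * pairCount H ≤ pairSum X H := by
    intro k hk
    refine mul_pairCount_le_pairSum X hn hN1 _ fun η hη => ?_
    obtain ⟨hηH, -⟩ := mem_sharp.mp hη
    refine pow_mul_card_le_sum_nsq hM X (pow_pos hp.out.pos n) (hpow η hηH)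
      (fun i _ => nsq_pos_of_one_mem hX.one_mem _) fun i _ => ?_
    exact exists_nsq_block_eq hM isPBlock_principalBlock _ (hk _ (pow_mem hηH i))
  set hR' : ℝ := (Nat.card H : ℝ) with hhR
  set den : ℝ := hR' * ((p : ℝ) - 2) - ((p : ℝ) - 1) with hden
  have hp3 : (3 : ℝ) ≤ p := by
    have := hp.out.two_le
    exact_mod_cast show 3 ≤ p by omega
  have hhp : (p : ℝ) ≤ hR' := by
    rw [hhR, hn]
    exact_mod_cast Nat.le_of_dvd (pow_pos hp.out.pos n) (dvd_pow_self p hn0)
  have hden1 : 1 ≤ den := by
    rw [hden]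
    nlinarith [mul_le_mul_of_nonneg_right hhp (show (0 : ℝ) ≤ (p : ℝ) - 2 by linarith),
      mul_le_mul_of_nonneg_right hp3 (show (0 : ℝ) ≤ (p : ℝ) - 3 by linarith)]
  -- every element of `H` is fixed by the normalizer
  have hfixed : ∀ g ∈ Subgroup.normalizer (H : Set G), ∀ x ∈ H, g * x * g⁻¹ = x := by
    by_contra hall
    push Not at hall
    obtain ⟨g, hg, x0, hx0, hne0⟩ := hall
    set H0 : Subgroup H :=
      (Subgroup.centralizer ((Subgroup.normalizer (H : Set G) : Subgroup G) : Set G)).subgroupOf H
      with hH0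
    have hH0top : H0 ≠ ⊤ := fun e => hne0 (by
      have hmem := Subgroup.mem_centralizer_iff.mp (Subgroup.subgroupOf_eq_top.mp e hx0) g hg
      rw [hmem, mul_inv_cancel_right])
    have hdvd : p ∣ H0.index := by
      obtain ⟨j, hj⟩ := h.isPGroup.index H0
      rcases Nat.eq_zero_or_pos j with rfl | hj0
      · exact absurd (Subgroup.index_eq_one.mp (by simpa using hj)) hH0top
      · exact hj ▸ dvd_pow_self p hj0.ne'
    have hcard0 : (p : ℝ) * Nat.card H0 ≤ hR' := by
      rw [hhR, ← H0.card_mul_index, mul_comm (p : ℝ)]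
      push_cast
      refine mul_le_mul_of_nonneg_left (Nat.cast_le.mpr (Nat.le_of_dvd ?_ hdvd)) (Nat.cast_nonneg _)
      exact Nat.pos_of_ne_zero Subgroup.index_ne_zero_of_finite
    have hcount : 2 * hR' - 1 - (Nat.card H0 : ℝ) ≤ pairCount H := by
      set S := sharp H
      set S0 := S.filter fun x : G =>
        x ∈ Subgroup.centralizer ((Subgroup.normalizer (H : Set G) : Subgroup G) : Set G)
      have hS0 : (S0.card : ℝ) + 1 ≤ (Nat.card H0 : ℝ) := by
        have hcard : Nat.card H0 = (Finset.univ.filter fun x : G =>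
            x ∈ H ⊓ Subgroup.centralizer ((Subgroup.normalizer (H : Set G) : Subgroup G) : Set G)).card := by
          rw [← Fintype.card_subtype, ← Nat.card_eq_fintype_card, hH0, ← Subgroup.inf_subgroupOf_left]
          exact Nat.card_congr (Subgroup.subgroupOfEquivOfLe inf_le_left).toEquiv
        have hlt : S0.card < (Finset.univ.filter fun x : G =>
            x ∈ H ⊓ Subgroup.centralizer ((Subgroup.normalizer (H : Set G) : Subgroup G) : Set G)).card := by
          refine Finset.card_lt_card (Finset.ssubset_iff_of_subset (fun x hx => ?_) |>.mpr ⟨1, ?_, ?_⟩)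
          · obtain ⟨hxS, hxC⟩ := Finset.mem_filter.mp hx
            exact Finset.mem_filter.mpr ⟨Finset.mem_univ x, Subgroup.mem_inf.mpr ⟨(mem_sharp.mp hxS).1, hxC⟩⟩
          · simp
          · simp [S0, S, mem_sharp]
        rw [hcard]
        exact_mod_cast hlt
      have hge : ∀ x ∈ S, (2 : ℝ) - (if x ∈ Subgroup.centralizer
          ((Subgroup.normalizer (H : Set G) : Subgroup G) : Set G) then 1 else 0) ≤
          ((S.filter fun y => IsConj x y).card : ℝ) := by
        intro x hx
        obtain ⟨hxH, hx1⟩ := mem_sharp.mp hx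
        split_ifs with hxC
        · rw [show (2 : ℝ) - 1 = 1 by norm_num]
          exact Nat.one_le_cast.mpr
            (Finset.card_pos.mpr ⟨x, Finset.mem_filter.mpr ⟨hx, IsConj.refl x⟩⟩)
        · rw [Subgroup.mem_centralizer_iff] at hxC
          push Not at hxC
          obtain ⟨n', hn', hne'⟩ := hxC
          have hsub : ({x, n' * x * n'⁻¹} : Finset G) ⊆ S.filter fun y => IsConj x y := by
            intro y hy
            rcases Finset.mem_insert.mp hy with rfl | hy
            · exact Finset.mem_filter.mpr ⟨hx, IsConj.refl y⟩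
            · rw [Finset.mem_singleton.mp hy]
              exact Finset.mem_filter.mpr ⟨mem_sharp.mpr
                ⟨(Subgroup.mem_normalizer_iff.mp hn' x).mp hxH, fun e => hx1 (conj_eq_one_iff.mp e)⟩,
                isConj_iff.mpr ⟨n', rfl⟩⟩
          have h2 := Finset.card_le_card hsub
          rw [Finset.card_pair fun e => hne' (mul_inv_eq_iff_eq_mul.mp e.symm)] at h2
          rw [sub_zero]
          exact_mod_cast h2
      refine le_trans ?_ (Finset.sum_le_sum hge)
      rw [Finset.sum_sub_distrib, Finset.sum_const, nsmul_eq_mul, Finset.sum_boole, card_sharp]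
      linarith
    have hT := hlow n fun η hη => hn ▸ Subgroup.card_dvd_of_le fun x hx =>
      Subgroup.mem_centralizer_singleton_iff.mpr (h.commute hx hη).eq
    rw [← Nat.cast_pow, ← hn, ← hhR] at hT
    have hpos : 0 < hR' := by linarith
    have h1 : hR' * ((2 * hR' - 1 - (Nat.card H0 : ℝ)) * den) < hR' * ((hR' - 1) * (den + 1)) :=
      calc hR' * ((2 * hR' - 1 - (Nat.card H0 : ℝ)) * den)
          ≤ hR' * pairCount H * den := by
            rw [mul_assoc]
            exact mul_le_mul_of_nonneg_left (mul_le_mul_of_nonneg_right hcount (by linarith)) hpos.le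
        _ ≤ pairSum X H * den := mul_le_mul_of_nonneg_right hT (by linarith)
        _ < hR' * (hR' - 1) * (den + 1) := hmom
        _ = _ := mul_assoc _ _ _
    have h2 := lt_of_mul_lt_mul_left h1 hpos.le
    -- `den (h - |H₀|) < h - 1`
    have h3 : den * (hR' - (Nat.card H0 : ℝ)) < hR' - 1 := by linarith
    have hH0le : 3 * (Nat.card H0 : ℝ) ≤ hR' :=
      le_trans (mul_le_mul_of_nonneg_right hp3 (Nat.cast_nonneg _)) hcard0
    by_cases hsmall : 2 ≤ den
    · nlinarith [mul_le_mul_of_nonneg_right hsmall (show (0:ℝ) ≤ hR' - Nat.card H0 by linarith)]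
    · push Not at hsmall
      -- then `p = 3 = |H|`
      rw [hden] at hsmall
      have hp' : (p : ℝ) < 5 := by
        by_contra hp5
        push Not at hp5
        nlinarith [mul_le_mul_of_nonneg_right hhp (show (0 : ℝ) ≤ (p : ℝ) - 2 by linarith)]
      have hp3' : p = 3 := by
        have h5 : p < 5 := by exact_mod_cast hp'
        have := hp.out.two_le
        rcases (show p = 3 ∨ p = 4 by omega) with hh | hh
        · exact hh
        · exact absurd (hh ▸ hp.out) (by decide)
      subst hp3'
      have hlt4 : hR' < 4 := by norm_num at hsmall; linarith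
      have hn1 : n = 1 := by
        have h4 : (3 : ℕ) ^ n < 3 ^ 2 := by
          have : Nat.card H < 4 := by rw [hhR] at hlt4; exact_mod_cast hlt4
          omega
        have := (Nat.pow_lt_pow_iff_right (by norm_num)).mp h4
        omega
      have hh3 : hR' = 3 := by rw [hhR, hn, hn1]; norm_num
      have hc1 : (Nat.card H0 : ℝ) ≤ 1 := by linarith
      have hden3 : den = 1 := by rw [hden, hh3]; norm_num
      rw [hden3, hh3] at h3
      linarith
  -- hence `H` is a Sylow subgroup
  obtain ⟨P, hP⟩ := h.isPGroup.exists_le_sylow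
  have hPN : (P : Subgroup G) ≤ Subgroup.normalizer (H : Set G) := h.le_normalizer P.2 hP
  have hcentral : ∀ g ∈ Subgroup.normalizer (H : Set G), ∀ x ∈ H, Commute g x := fun g hg x hx =>
    mul_inv_eq_iff_eq_mul.mp (hfixed g hg x hx)
  have hPH : (P : Subgroup G) = H := by
    by_contra hne'
    obtain ⟨j, hj⟩ := P.2.exists_card_eq
    have hnj : n < j := by
      by_contra hle
      push Not at hle
      exact hne' (Subgroup.eq_of_le_of_card_ge hP (by
        rw [hn, hj]; exact Nat.pow_le_pow_right hp.out.pos hle)).symm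
    have hT := hlow (n + 1) fun η hη => (pow_dvd_pow p hnj).trans (hj ▸
      Subgroup.card_dvd_of_le fun g hg =>
        Subgroup.mem_centralizer_singleton_iff.mpr (hcentral g (hPN hg) η hη).eq)
    have hcnt := card_sharp_le_pairCount H
    rw [pow_succ, ← Nat.cast_pow, ← hn] at hT
    have hh1 : 0 ≤ hR' - 1 := by linarith
    have h1 : hR' * (hR' - 1) * ((p : ℝ) * den) < hR' * (hR' - 1) * (den + 1) :=
      calc hR' * (hR' - 1) * ((p : ℝ) * den) = hR' * (p : ℝ) * (hR' - 1) * den := by ring
        _ ≤ hR' * (p : ℝ) * pairCount H * den := by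
          exact mul_le_mul_of_nonneg_right (mul_le_mul_of_nonneg_left hcnt
            (mul_nonneg (Nat.cast_nonneg _) (Nat.cast_nonneg _))) (by linarith)
        _ ≤ pairSum X H * den := mul_le_mul_of_nonneg_right hT (by linarith)
        _ < _ := hmom
    have h2 := lt_of_mul_lt_mul_left h1 (mul_nonneg (by linarith) hh1)
    nlinarith [mul_le_mul_of_nonneg_right hp3 (show (0 : ℝ) ≤ den by linarith)]
  have hburn : Subgroup.normalizer ((P : Subgroup G) : Set G) ≤
      Subgroup.centralizer ((P : Subgroup G) : Set G) := by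
    intro g hg
    rw [Subgroup.mem_centralizer_iff]
    intro x hx
    rw [hPH] at hg hx
    exact (hcentral g hg x hx).eq.symm
  refine ⟨(MonoidHom.transferSylow P hburn).ker, inferInstance,
    MonoidHom.not_dvd_card_ker_transferSylow P hburn, ?_⟩
  have := MonoidHom.ker_transferSylow_isComplement' P hburn
  exact (congrArg (fun Q : Subgroup G => (MonoidHom.transferSylow P hburn).ker.IsComplement' Q)
    hPH).mp this

end CfsgLib.ExtremelyClosedOdd
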